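import Cfsg.Agent.Linear.Transvection

/-!
Two-element generation of `SL_{n+1}` over finite fields by a torus element and a Coxeter-type
monomial element times a transvection.
-/

set_option autoImplicit false

open Matrix
open scoped commutatorElement
open Fin.NatCast

namespace Cfsg.Agent.Spec.SLGen

variable {K : Type*} [Field K] {n : ℕ}

local notation "SLn" => Matrix.SpecialLinearGroup (Fin (n + 1)) K

/-- The signs of the cyclic monomial matrix. -/
def esign (n : ℕ) (i : Fin (n + 1)) : K := if i.val = n then (-1) ^ n else 1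

theorem esign_sq (i : Fin (n + 1)) : esign (K := K) n i * esign n i = 1 := by
  unfold esign
  split_ifs
  · rw [← mul_pow]; simp
  · simp

/-- The cyclic monomial matrix. -/
def cycMat (K : Type*) [Field K] (n : ℕ) : Matrix (Fin (n + 1)) (Fin (n + 1)) K :=
  Matrix.of fun i j => if j = i + 1 then esign n i else 0

theorem cycMat_eq :
    cycMat K n = Matrix.of (fun i j : Fin (n + 1) =>
      if j.val = i.val + 1 then 1 else if i.val = n ∧ j.val = 0 then (-1) ^ n else 0) := by
  ext i j
  have hi := i.isLt
  have hj := j.isLt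
  simp only [cycMat, Matrix.of_apply, esign, Fin.ext_iff, Fin.val_add_one]
  split_ifs <;> grind

theorem cycMat_mul (M : Matrix (Fin (n + 1)) (Fin (n + 1)) K) (i j : Fin (n + 1)) :
    (cycMat K n * M) i j = esign n i * M (i + 1) j := by
  simp [cycMat, Matrix.mul_apply]

theorem mul_cycMat (M : Matrix (Fin (n + 1)) (Fin (n + 1)) K) (i j : Fin (n + 1)) :
    (M * cycMat K n) i j = M i (j - 1) * esign n (j - 1) := by
  simp [cycMat, Matrix.mul_apply, ← sub_eq_iff_eq_add]

theorem conj_transvection (w : SLn) (hw : (w : Matrix (Fin (n + 1)) (Fin (n + 1)) K) = cycMat K n)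
    {a b : Fin (n + 1)} (hab : a ≠ b) (hab' : a + 1 ≠ b + 1) (t : K) :
    w * SpecialLinearGroup.transvection hab' (esign n a * esign n b * t) * w⁻¹ =
      SpecialLinearGroup.transvection hab t := by
  rw [mul_inv_eq_iff_eq_mul]
  apply Subtype.ext
  simp only [Linear.val_mul, SpecialLinearGroup.transvection_coe, hw, mul_add, add_mul, mul_one,
    one_mul]
  congr 1
  ext i j
  rw [cycMat_mul, mul_cycMat]
  simp only [Matrix.single_apply, add_left_inj, eq_sub_iff_add_eq]
  by_cases hi : a = i
  · by_cases hj : b + 1 = j
    · subst hi hj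
      simp only [and_self, if_true, add_sub_cancel_right]
      linear_combination esign (K := K) n b * t * esign_sq (K := K) a
    · simp [hj]
  · simp [hi]

/-- If a subgroup contains the full root group of position `(0, 1)` and the cyclic monomial
element then it is everything. -/
theorem eq_top_of_root_mem (hn : 1 ≤ n) (w : SLn)
    (hw : (w : Matrix (Fin (n + 1)) (Fin (n + 1)) K) = cycMat K n) (H : Subgroup SLn) (hwH : w ∈ H)
    (h01 : ∀ (h : (0 : Fin (n + 1)) ≠ 1) (t : K), SpecialLinearGroup.transvection h t ∈ H) :
    H = ⊤ := by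
  haveI : Nontrivial (Fin (n + 1)) := Fin.nontrivial_iff_two_le.2 (by omega)
  have hone : ∀ (i : Fin (n + 1)) (h : i ≠ i + 1) (t : K), SpecialLinearGroup.transvection h t ∈ H := by
    have key : ∀ (m : ℕ) (i : Fin (n + 1)), i + (m : Fin (n + 1)) = 0 → ∀ (h : i ≠ i + 1) (t : K),
        SpecialLinearGroup.transvection h t ∈ H := by
      intro m
      induction m with
      | zero =>
        intro i hi
        simp at hi
        subst hi
        intro h t
        simp only [zero_add] at h ⊢
        exact h01 h t
      | succ m ih =>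
        intro i hi h t
        rw [← conj_transvection w hw h (fun e => h (add_right_cancel e)) t]
        refine mul_mem (mul_mem hwH ?_) (inv_mem hwH)
        exact ih (i + 1) (by rw [← hi]; push_cast; abel) _ _
    intro i
    exact key (-i).val i (by simp)
  have hall : ∀ (d : ℕ), 1 ≤ d → d ≤ n → ∀ (i j : Fin (n + 1)) (h : i ≠ j), j = i + (d : Fin (n + 1)) →
      ∀ t : K, SpecialLinearGroup.transvection h t ∈ H := by
    intro d hd
    induction d, hd using Nat.le_induction with
    | base =>
      intro _ i j h hj t
      subst hj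
      simp only [Nat.cast_one] at h ⊢
      exact hone i h t
    | succ d hd1 ih =>
      intro hdn i j h hj t
      have hne : ∀ e : ℕ, 1 ≤ e → e ≤ n → ∀ x : Fin (n + 1), x ≠ x + (e : Fin (n + 1)) := by
        intro e he1 he2 x hx
        have : ((e : Fin (n + 1)) : ℕ) = ((0 : Fin (n + 1)) : ℕ) :=
          congrArg Fin.val (left_eq_add.1 hx)
        rw [Fin.val_natCast, Nat.mod_eq_of_lt (by omega), Fin.val_zero] at this
        omega
      have hik : i ≠ i + (d : Fin (n + 1)) := hne d hd1 (by omega) i
      have hkj : i + (d : Fin (n + 1)) ≠ j := by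
        rw [hj, Nat.cast_succ, ← add_assoc]
        simpa using hne 1 le_rfl hn (i + (d : Fin (n + 1)))
      have hc := Linear.transvection_commutator h hik hkj t 1
      rw [mul_one] at hc
      rw [← hc, commutatorElement_def]
      have h1 := ih (by omega) i _ hik rfl t
      have h2 : SpecialLinearGroup.transvection hkj (1 : K) ∈ H := by
        have hj' : j = (i + (d : Fin (n + 1))) + 1 := by rw [hj, Nat.cast_succ, add_assoc]
        subst hj'
        exact hone _ _ _
      exact mul_mem (mul_mem (mul_mem h1 h2) (inv_mem h1)) (inv_mem h2)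
  refine Linear.eq_top_of_transvection_mem H fun i j hij c => hall (j - i).val ?_ ?_ i j hij ?_ c
  · by_contra h0
    have : ((j - i : Fin (n + 1)) : ℕ) = ((0 : Fin (n + 1)) : ℕ) := by rw [Fin.val_zero]; omega
    exact hij (sub_eq_zero.1 (Fin.ext this)).symm
  · exact Nat.lt_succ_iff.1 (j - i).isLt
  · simp

/-- The parameters `t` with `transvection (0,1) t ∈ H`. -/
def rootParams (h : (0 : Fin (n + 1)) ≠ 1) (H : Subgroup SLn) : AddSubgroup K where
  carrier := {t | SpecialLinearGroup.transvection h t ∈ H}
  zero_mem' := by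
    have : SpecialLinearGroup.transvection h (0 : K) = (1 : SLn) :=
      Subtype.ext (by simp [SpecialLinearGroup.transvection_coe])
    show SpecialLinearGroup.transvection h (0 : K) ∈ H
    rw [this]; exact one_mem H
  add_mem' := by
    intro a b ha hb
    have : SpecialLinearGroup.transvection h (a + b) =
        SpecialLinearGroup.transvection h a * SpecialLinearGroup.transvection h b :=
      Subtype.ext (by simp [SpecialLinearGroup.transvection_coe, Linear.val_mul, mul_add, add_mul,
        Matrix.single_mul_single_of_ne _ _ _ _ h.symm, Matrix.single_add, add_assoc])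
    show SpecialLinearGroup.transvection h (a + b) ∈ H
    rw [this]; exact mul_mem ha hb
  neg_mem' := by
    intro a ha
    show SpecialLinearGroup.transvection h (-a) ∈ H
    rw [← SpecialLinearGroup.transvection_inv h a]; exact inv_mem ha

/-- An additive subgroup of a finite field stable under multiplication by all squares and
containing a nonzero element is everything. -/
theorem addSubgroup_eq_top_of_sq [Finite K] (A : AddSubgroup K) {s : K} (hs : s ∈ A) (hs0 : s ≠ 0)
    (hsq : ∀ u : K, u ≠ 0 → ∀ t ∈ A, u ^ 2 * t ∈ A) : A = ⊤ := by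
  have hsq' : ∀ u : K, ∀ t ∈ A, u ^ 2 * t ∈ A := by
    intro u t ht
    rcases eq_or_ne u 0 with rfl | hu
    · simp
    · exact hsq u hu t ht
  refine eq_top_iff.2 fun t _ => ?_
  set x := t / s with hx
  have ht : t = x * s := by rw [hx, div_mul_cancel₀ t hs0]
  rw [ht]
  by_cases h2 : (2 : K) = 0
  · have : CharP K 2 := CharTwo.of_one_ne_zero_of_two_eq_zero one_ne_zero h2
    obtain ⟨u, hu⟩ := FiniteField.isSquare_of_char_two (F := K) (ringChar.eq K 2) x
    rw [hu, ← pow_two]
    exact hsq' u s hs
  · rw [show x * s = ((x + 1) / 2) ^ 2 * s - ((x - 1) / 2) ^ 2 * s by field_simp; ring]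
    exact sub_mem (hsq' _ s hs) (hsq' _ s hs)

theorem diag_mul_transvection {a b : Fin (n + 1)} (hab : a ≠ b) (D : SLn) (d : Fin (n + 1) → K)
    (hD : (D : Matrix (Fin (n + 1)) (Fin (n + 1)) K) = Matrix.diagonal d) (c t : K) (hc : c * d b = d a) :
    D * SpecialLinearGroup.transvection hab t * D⁻¹ = SpecialLinearGroup.transvection hab (c * t) := by
  rw [mul_inv_eq_iff_eq_mul]
  apply Subtype.ext
  simp only [Linear.val_mul, SpecialLinearGroup.transvection_coe, hD, mul_add, add_mul, mul_one, one_mul]
  congr 1
  ext i j
  rw [Matrix.diagonal_mul, Matrix.mul_diagonal]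
  simp only [Matrix.single_apply]
  by_cases hi : a = i ∧ b = j
  · obtain ⟨rfl, rfl⟩ := hi
    rw [if_pos ⟨rfl, rfl⟩, if_pos ⟨rfl, rfl⟩, mul_right_comm, hc]
  · rw [if_neg hi, if_neg hi, mul_zero, zero_mul]

end Cfsg.Agent.Spec.SLGen
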