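import Mathlib
import Cfsg.Agent.Spec.PSL3Cert

/-!
Every non-central element of `SL₃` is a product of two conjugates of one semisimple element.
-/

set_option autoImplicit false

open Matrix

namespace Cfsg.Agent.Spec.Three

section General

variable {F : Type*} [Field F]

abbrev SL3 (F : Type*) [CommRing F] := Matrix.SpecialLinearGroup (Fin 3) F

theorem indep_of_not_scalar (g : Matrix (Fin 3) (Fin 3) F) (hg : ∀ c : F, g ≠ c • 1) :
    ∃ v : Fin 3 → F, LinearIndependent F ![v, g *ᵥ v] := by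
  by_contra h
  push Not at h
  obtain ⟨f, hf⟩ : ∃ c : F, Matrix.toLin' g = c • LinearMap.id := by
    refine LinearMap.exists_eq_smul_id_of_forall_notLinearIndependent fun v => ?_
    rw [Matrix.toLin'_apply]
    exact h v
  exact hg f (by
    apply Matrix.toLin'.injective
    rw [hf, map_smul, Matrix.toLin'_one])

/-- Columns `x y z` assembled into a matrix. -/
def cols (x y z : Fin 3 → F) : Matrix (Fin 3) (Fin 3) F := (Matrix.of ![x, y, z])ᵀ

theorem cols_det_ne (x y z : Fin 3 → F) (h : LinearIndependent F ![x, y, z]) :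
    (cols x y z).det ≠ 0 := by
  have : IsUnit (cols x y z) := Matrix.linearIndependent_cols_iff_isUnit.1 h
  exact ((Matrix.isUnit_iff_isUnit_det _).1 this).ne_zero

theorem conj_of_mul_eq {g P A : Matrix (Fin 3) (Fin 3) F} (hP : P.det ≠ 0) (h : g * P = P * A) :
    A = P⁻¹ * g * P ∧ g = P * A * P⁻¹ ∧ A.det = g.det := by
  have hu : IsUnit P.det := isUnit_iff_ne_zero.2 hP
  refine ⟨?_, ?_, ?_⟩
  · rw [Matrix.mul_assoc, h, ← Matrix.mul_assoc, Matrix.nonsing_inv_mul _ hu, one_mul]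
  · rw [← h, Matrix.mul_assoc, Matrix.mul_nonsing_inv _ hu, mul_one]
  · have := congrArg Matrix.det h
    rw [Matrix.det_mul, Matrix.det_mul, mul_comm] at this
    exact (mul_left_cancel₀ hP this).symm

/-- Rescale the change of basis to determinant one. -/
theorem sl_conj (g : SL3 F) (P A : Matrix (Fin 3) (Fin 3) F) (hP : P.det ≠ 0)
    (h : (g : Matrix (Fin 3) (Fin 3) F) * P = P * A) :
    ∃ (Q : SL3 F) (B : SL3 F) (d : F), d ≠ 0 ∧ g = Q * B * Q⁻¹ ∧
      ∀ i j, (B : Matrix (Fin 3) (Fin 3) F) i j =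
        (if i = 0 then d else 1) * A i j * (if j = 0 then d⁻¹ else 1) := by
  set d := P.det
  let D : Matrix (Fin 3) (Fin 3) F := Matrix.diagonal fun i => if i = 0 then d⁻¹ else 1
  let D' : Matrix (Fin 3) (Fin 3) F := Matrix.diagonal fun i => if i = 0 then d else 1
  have hDD : D * D' = 1 := by
    rw [Matrix.diagonal_mul_diagonal, ← Matrix.diagonal_one]
    congr 1
    funext i
    split_ifs <;> simp [hP, d]
  have hdet : (P * D).det = 1 := by
    rw [Matrix.det_mul, Matrix.det_diagonal, Fin.prod_univ_three]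
    simp [hP, d]
  have hdetB : (D' * A * D).det = 1 := by
    have h1 : D'.det * D.det = 1 := by
      rw [mul_comm, ← Matrix.det_mul, hDD, Matrix.det_one]
    rw [Matrix.det_mul, Matrix.det_mul, mul_right_comm, h1, one_mul, (conj_of_mul_eq hP h).2.2]
    exact g.2
  let Q : SL3 F := ⟨P * D, hdet⟩
  let B : SL3 F := ⟨D' * A * D, hdetB⟩
  refine ⟨Q, B, d, hP, ?_, ?_⟩
  · rw [eq_mul_inv_iff_mul_eq]
    apply Subtype.ext
    show (g : Matrix (Fin 3) (Fin 3) F) * (P * D) = P * D * (D' * A * D)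
    rw [← Matrix.mul_assoc, h, Matrix.mul_assoc D' A D, ← Matrix.mul_assoc (P * D),
      Matrix.mul_assoc P D D', hDD, mul_one, Matrix.mul_assoc]
  · intro i j
    simp [B, D, D', Matrix.mul_diagonal, Matrix.diagonal_mul]

/-- Either a cyclic vector exists, or a vector spans an invariant plane with its image. -/
theorem normal_forms (g : SL3 F) (hg : ∀ c : F, (g : Matrix (Fin 3) (Fin 3) F) ≠ c • 1) :
    (∃ (P : Matrix (Fin 3) (Fin 3) F) (a₀ a₁ a₂ : F), P.det ≠ 0 ∧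
      (g : Matrix (Fin 3) (Fin 3) F) * P = P * !![0, 0, a₀; 1, 0, a₁; 0, 1, a₂]) ∨
    ∃ (P : Matrix (Fin 3) (Fin 3) F) (x y a b c : F), P.det ≠ 0 ∧
      (g : Matrix (Fin 3) (Fin 3) F) * P = P * !![0, x, a; 1, y, b; 0, 0, c] := by
  set G := (g : Matrix (Fin 3) (Fin 3) F)
  obtain ⟨v, hv⟩ := indep_of_not_scalar G hg
  have expand : ∀ e₁ e₂ e₃ : Fin 3 → F, LinearIndependent F ![e₁, e₂, e₃] → ∀ w : Fin 3 → F,
      ∃ a b c : F, w = a • e₁ + b • e₂ + c • e₃ := by
    intro e₁ e₂ e₃ h w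
    have htop : Submodule.span F (Set.range ![e₁, e₂, e₃]) = ⊤ :=
      h.span_eq_top_of_card_eq_finrank (by simp)
    obtain ⟨f, hf⟩ := (Submodule.mem_span_range_iff_exists_fun F).1
      (htop.ge (Submodule.mem_top (x := w)))
    exact ⟨f 0, f 1, f 2, by rw [← hf, Fin.sum_univ_three]; rfl⟩
  by_cases h3 : LinearIndependent F ![v, G *ᵥ v, G *ᵥ (G *ᵥ v)]
  · obtain ⟨a, b, c, habc⟩ := expand _ _ _ h3 (G *ᵥ (G *ᵥ (G *ᵥ v)))
    refine Or.inl ⟨cols v (G *ᵥ v) (G *ᵥ (G *ᵥ v)), a, b, c, cols_det_ne _ _ _ h3, ?_⟩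
    refine Matrix.ext fun i j => ?_
    have := congrFun habc i
    simp only [Matrix.mul_apply, Fin.sum_univ_three, cols, Matrix.mulVec, dotProduct,
      Pi.add_apply, Pi.smul_apply, smul_eq_mul] at this ⊢
    fin_cases j <;> simp [Matrix.mulVec, dotProduct, Fin.sum_univ_three, Matrix.mul_apply] <;> first | ring1 | linear_combination this
  · obtain ⟨w, hw⟩ : ∃ w, LinearIndependent F ![v, G *ᵥ v, w] := by
      by_contra hno
      push Not at hno
      have hsub : ∀ w, w ∈ Submodule.span F (Set.range ![v, G *ᵥ v]) := by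
        intro w
        by_contra hw
        apply hno w
        have h2 : ![v, G *ᵥ v, w] = Fin.snoc ![v, G *ᵥ v] w := by
          funext i; fin_cases i <;> rfl
        rw [h2]
        exact linearIndependent_fin_snoc.2 ⟨hv, hw⟩
      have := finrank_span_eq_card hv
      rw [show Submodule.span F (Set.range ![v, G *ᵥ v]) = ⊤ from Submodule.eq_top_iff'.2 hsub] at this
      simp at this
    obtain ⟨a, b, c, habc⟩ := expand _ _ _ hw (G *ᵥ w)
    obtain ⟨x, y, hxy⟩ : ∃ x y : F, G *ᵥ (G *ᵥ v) = x • v + y • (G *ᵥ v) := by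
      by_contra hne
      apply h3
      have h2 : ![v, G *ᵥ v, G *ᵥ (G *ᵥ v)] = Fin.snoc ![v, G *ᵥ v] (G *ᵥ (G *ᵥ v)) := by
        funext i; fin_cases i <;> rfl
      rw [h2]
      refine linearIndependent_fin_snoc.2 ⟨hv, fun hmem => hne ?_⟩
      obtain ⟨f, hf⟩ := (Submodule.mem_span_range_iff_exists_fun F).1 hmem
      exact ⟨f 0, f 1, by rw [← hf, Fin.sum_univ_two]; rfl⟩
    refine Or.inr ⟨cols v (G *ᵥ v) w, x, y, a, b, c, cols_det_ne _ _ _ hw, ?_⟩
    refine Matrix.ext fun i j => ?_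
    have h1 := congrFun habc i
    have h2 := congrFun hxy i
    simp only [Matrix.mul_apply, Fin.sum_univ_three, cols, Matrix.mulVec, dotProduct,
      Pi.add_apply, Pi.smul_apply, smul_eq_mul] at h1 h2 ⊢
    fin_cases j <;> simp [Matrix.mulVec, dotProduct, Fin.sum_univ_three, Matrix.mul_apply] <;> first | ring1 | linear_combination h1 | linear_combination h2

/-- A conjugate with prescribed leading minors. -/
theorem minors (g : SL3 F) (hg : ∀ c : F, (g : Matrix (Fin 3) (Fin 3) F) ≠ c • 1) (h₀ h₁ : F) :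
    ∃ (Q B : SL3 F), g = Q * B * Q⁻¹ ∧ (B : Matrix (Fin 3) (Fin 3) F) 0 0 = h₀ ∧
      (B : Matrix (Fin 3) (Fin 3) F) 0 0 * (B : Matrix (Fin 3) (Fin 3) F) 1 1 -
        (B : Matrix (Fin 3) (Fin 3) F) 0 1 * (B : Matrix (Fin 3) (Fin 3) F) 1 0 = h₀ * h₁ := by
  suffices h : ∃ (P A : Matrix (Fin 3) (Fin 3) F), P.det ≠ 0 ∧
      (g : Matrix (Fin 3) (Fin 3) F) * P = P * A ∧ A 0 0 = h₀ ∧
      A 0 0 * A 1 1 - A 0 1 * A 1 0 = h₀ * h₁ by
    obtain ⟨P, A, hP, hPA, ha, hb⟩ := h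
    obtain ⟨Q, B, d, hd, hQ, hB⟩ := sl_conj g P A hP hPA
    refine ⟨Q, B, hQ, ?_, ?_⟩
    · rw [hB, if_pos rfl, if_pos rfl, ← ha]; field_simp
    · rw [hB 0 0, hB 1 1, hB 0 1, hB 1 0, if_pos rfl, if_pos rfl, if_neg (by decide),
        if_neg (by decide), ← hb]
      field_simp
  have hdetg : (g : Matrix (Fin 3) (Fin 3) F).det = 1 := g.2
  rcases normal_forms g hg with ⟨P, a₀, a₁, a₂, hP, h⟩ | ⟨P, x, y, a, b, c, hP, h⟩
  · let T : Matrix (Fin 3) (Fin 3) F := !![1, -h₀, h₀ * h₁; 0, 1, -h₀; 0, 0, 1]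
    let T' : Matrix (Fin 3) (Fin 3) F := !![1, h₀, h₀ * h₀ - h₀ * h₁; 0, 1, h₀; 0, 0, 1]
    have hT : T * T' = 1 := by
      refine Matrix.ext fun i j => ?_
      fin_cases i <;> fin_cases j <;> simp [T, T', Matrix.mul_apply, Fin.sum_univ_three] <;> ring
    refine ⟨P * T, T' * !![0, 0, a₀; 1, 0, a₁; 0, 1, a₂] * T, ?_, ?_, ?_, ?_⟩
    · rw [Matrix.det_mul, Matrix.det_fin_three T]
      simp [T, hP]
    · rw [← Matrix.mul_assoc, h, Matrix.mul_assoc P T, ← Matrix.mul_assoc T, ← Matrix.mul_assoc T,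
        hT, one_mul, Matrix.mul_assoc]
    · simp [T, T', Matrix.mul_apply, Fin.sum_univ_three]
    · simp [T, T', Matrix.mul_apply, Fin.sum_univ_three]
  · have hc : c ≠ 0 := by
      rintro rfl
      have := (conj_of_mul_eq hP h).2.2
      rw [hdetg, Matrix.det_fin_three] at this
      simp at this
    -- a first change of basis, then a shift of the third vector, then a shift of the second
    let y₁ : F := y - h₀
    let x₁ : F := x + h₀ * y₁
    let a₁ : F := a + h₀ * b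
    set s : F := (1 - (h₀ * b - a₁)) / c with hs
    have hs' : h₀ * b - a₁ + c * s = 1 := by rw [hs]; field_simp; ring
    let t : F := h₀ * h₁ - (h₀ * y₁ - x₁)
    let T : Matrix (Fin 3) (Fin 3) F := !![1, -h₀ + t * s, s; 0, 1, 0; 0, t, 1]
    let T' : Matrix (Fin 3) (Fin 3) F := !![1, h₀, -s; 0, 1, 0; 0, -t, 1]
    have hT : T * T' = 1 := by
      refine Matrix.ext fun i j => ?_
      fin_cases i <;> fin_cases j <;> simp [T, T', Matrix.mul_apply, Fin.sum_univ_three] <;> ring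
    refine ⟨P * T, T' * !![0, x, a; 1, y, b; 0, 0, c] * T, ?_, ?_, ?_, ?_⟩
    · rw [Matrix.det_mul, Matrix.det_fin_three T]
      simp [T, hP]
    · rw [← Matrix.mul_assoc, h, Matrix.mul_assoc P T, ← Matrix.mul_assoc T, ← Matrix.mul_assoc T,
        hT, one_mul, Matrix.mul_assoc]
    · simp [T, T', Matrix.mul_apply, Fin.sum_univ_three]
    · simp [T, T', t, x₁, y₁, Matrix.mul_apply, Fin.sum_univ_three]
      linear_combination (h₀ * h₁ - (h₀ * y₁ - x₁)) * hs'

/-- Two triangular factors, each conjugate to the diagonal element. -/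
theorem covering (s : SL3 F) (s₀ s₁ s₂ : F)
    (hs : (s : Matrix (Fin 3) (Fin 3) F) = Matrix.diagonal ![s₀, s₁, s₂])
    (h01 : s₀ ≠ s₁) (h12 : s₁ ≠ s₂) (h02 : s₀ ≠ s₂)
    (g : SL3 F) (hg : ∀ c : F, (g : Matrix (Fin 3) (Fin 3) F) ≠ c • 1) :
    ∃ u v : SL3 F, g = (u * s * u⁻¹) * (v * s * v⁻¹) := by
  have hdet : s₀ * s₁ * s₂ = 1 := by
    have := s.2
    rw [hs, Matrix.det_diagonal, Fin.prod_univ_three] at this
    simpa using this
  have hs0 : s₀ ≠ 0 := by rintro rfl; simp at hdet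
  have hs1 : s₁ ≠ 0 := by rintro rfl; simp at hdet
  have hs2 : s₂ ≠ 0 := by rintro rfl; simp at hdet
  obtain ⟨Q, B, hQ, hm0, hm1⟩ := minors g hg (s₀ * s₀) (s₁ * s₁)
  have hBdet := B.2
  rw [Matrix.det_fin_three] at hBdet
  set b := (B : Matrix (Fin 3) (Fin 3) F)
  have e01 : s₀ - s₁ ≠ 0 := sub_ne_zero.2 h01
  have e12 : s₁ - s₂ ≠ 0 := sub_ne_zero.2 h12
  have e02 : s₀ - s₂ ≠ 0 := sub_ne_zero.2 h02
  have e10 : s₁ - s₀ ≠ 0 := sub_ne_zero.2 h01.symm
  have e21 : s₂ - s₁ ≠ 0 := sub_ne_zero.2 h12.symm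
  have e20 : s₂ - s₀ ≠ 0 := sub_ne_zero.2 h02.symm
  set l10 := b 1 0 / (s₀ * s₀) with hl10
  set l20 := b 2 0 / (s₀ * s₀) with hl20
  set u01 := b 0 1 / (s₀ * s₀) with hu01
  set u02 := b 0 2 / (s₀ * s₀) with hu02
  set l21 := (b 2 1 - l20 * b 0 1) / (s₁ * s₁) with hl21
  set u12 := (b 1 2 - l10 * b 0 2) / (s₁ * s₁) with hu12
  set x10 := l10 * s₀ / (s₀ - s₁) with hx10
  set x21 := l21 * s₁ / (s₁ - s₂) with hx21
  set x20 := (l20 * s₀ + l21 * s₁ * x10) / (s₀ - s₂) with hx20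
  set y01 := s₀ * u01 / (s₁ - s₀) with hy01
  set y12 := s₁ * u12 / (s₂ - s₁) with hy12
  set y02 := (s₀ * u01 * y12 + s₀ * u02) / (s₂ - s₀) with hy02
  let X : SL3 F := ⟨!![1, 0, 0; x10, 1, 0; x20, x21, 1], by rw [Matrix.det_fin_three]; simp⟩
  let Y : SL3 F := ⟨!![1, y01, y02; 0, 1, y12; 0, 0, 1], by rw [Matrix.det_fin_three]; simp⟩
  let Ls : SL3 F := ⟨!![s₀, 0, 0; l10 * s₀, s₁, 0; l20 * s₀, l21 * s₁, s₂], by
    rw [Matrix.det_fin_three]; simp; linear_combination hdet⟩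
  let sU : SL3 F := ⟨!![s₀, s₀ * u01, s₀ * u02; 0, s₁, s₁ * u12; 0, 0, s₂], by
    rw [Matrix.det_fin_three]; simp; linear_combination hdet⟩
  have h1 : X * s = Ls * X := by
    apply Subtype.ext
    show (X : Matrix (Fin 3) (Fin 3) F) * (s : Matrix (Fin 3) (Fin 3) F) = Ls.1 * X.1
    rw [hs]
    refine Matrix.ext fun i j => ?_
    fin_cases i <;> fin_cases j <;>
      simp [X, Ls, Matrix.mul_apply, Fin.sum_univ_three] <;>
      (simp only [hx20, hx21, hx10]; field_simp; ring)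
  have h2 : Y * s = sU * Y := by
    apply Subtype.ext
    show (Y : Matrix (Fin 3) (Fin 3) F) * (s : Matrix (Fin 3) (Fin 3) F) = sU.1 * Y.1
    rw [hs]
    refine Matrix.ext fun i j => ?_
    fin_cases i <;> fin_cases j <;>
      simp [Y, sU, Matrix.mul_apply, Fin.sum_univ_three] <;>
      (simp only [hy02, hy12, hy01]; field_simp; ring)
  have h11 : b 1 1 = l10 * b 0 1 + s₁ * s₁ := by
    rw [hl10]; field_simp
    linear_combination hm1 - b 1 1 * hm0
  have hb : b 0 0 = s₀ * s₀ ∧ b 0 1 = s₀ * s₀ * u01 ∧ b 0 2 = s₀ * s₀ * u02 ∧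
      b 1 0 = s₀ * s₀ * l10 ∧ b 2 0 = s₀ * s₀ * l20 := by
    refine ⟨hm0, ?_, ?_, ?_, ?_⟩ <;> simp only [hu01, hu02, hl10, hl20] <;> field_simp
  obtain ⟨q00, q01, q02, q10, q20⟩ := hb
  have q21 : b 2 1 = l20 * b 0 1 + s₁ * s₁ * l21 := by rw [hl21]; field_simp; ring
  have q12 : b 1 2 = l10 * b 0 2 + s₁ * s₁ * u12 := by rw [hu12]; field_simp; ring
  have q22 : b 2 2 = l20 * b 0 2 + s₁ * s₁ * l21 * u12 + s₂ * s₂ := by
    have hne : s₀ * s₀ * (s₁ * s₁) ≠ 0 := by simp [hs0, hs1]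
    apply mul_left_cancel₀ hne
    rw [q00, q10, q20, h11, q21, q12, q01, q02] at hBdet
    rw [q02]
    linear_combination hBdet - (s₀ * s₁ * s₂ + 1) * hdet
  have hB : B = Ls * sU := by
    apply Subtype.ext
    show b = Ls.1 * sU.1
    refine Matrix.ext fun i j => ?_
    fin_cases i <;> fin_cases j <;> simp [Ls, sU, Matrix.mul_apply, Fin.sum_univ_three]
    · linear_combination q00
    · linear_combination q01
    · linear_combination q02
    · linear_combination q10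
    · linear_combination h11 + l10 * q01
    · linear_combination q12 + l10 * q02
    · linear_combination q20
    · linear_combination q21 + l20 * q01
    · linear_combination q22 + l20 * q02
  refine ⟨Q * X, Q * Y, ?_⟩
  have e1 : Q * X * s * (Q * X)⁻¹ = Q * Ls * Q⁻¹ := by
    rw [mul_assoc Q X s, h1]; group
  have e2 : Q * Y * s * (Q * Y)⁻¹ = Q * sU * Q⁻¹ := by
    rw [mul_assoc Q Y s, h2]; group
  rw [e1, e2, hQ, hB]; group

end General

section Three

theorem covering_three :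
    ∃ s : SL3 (ZMod 3), s ^ 4 = 1 ∧ ∀ g : SL3 (ZMod 3),
      (∀ c : ZMod 3, (g : Matrix (Fin 3) (Fin 3) (ZMod 3)) ≠ c • 1) →
        ∃ u v : SL3 (ZMod 3), g = (u * s * u⁻¹) * (v * s * v⁻¹) := by
  have hX : det3 X = 1 := by decide +kernel
  have hdet : ∀ A : M3, det3 A = 1 → A.det = 1 := fun A h => by
    rw [Matrix.det_fin_three]; exact h
  refine ⟨⟨X, hdet X hX⟩, Subtype.ext (show X ^ 4 = 1 by decide +kernel), fun g hg => ?_⟩
  suffices h : ∃ (P : M3) (e : Cert), e ∈ certs ∧ P.det ≠ 0 ∧ (g : M3) * P = P * e.g by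
    obtain ⟨P, e, he, hP, hPe⟩ := h
    obtain ⟨Q, B, d, hd, hQ, hB⟩ := sl_conj g P e.g hP hPe
    have hok := List.all_eq_true.1 certs_ok e he
    simp only [Cert.ok, Bool.and_eq_true, decide_eq_true_eq] at hok
    obtain ⟨⟨⟨⟨hu, hv⟩, hdu⟩, hdv⟩, heq⟩ := hok
    let U : SL3 (ZMod 3) := ⟨e.u, hdet _ hdu⟩
    let V : SL3 (ZMod 3) := ⟨e.v, hdet _ hdv⟩
    let S : SL3 (ZMod 3) := ⟨X, hdet X hX⟩
    have hU : (U⁻¹).1 = e.u' := by
      have h1 : U.1 * (U⁻¹).1 = 1 := congrArg Subtype.val (mul_inv_cancel U)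
      have h2 : e.u' * e.u = 1 := mul_eq_one_comm.1 hu
      calc (U⁻¹).1 = e.u' * e.u * (U⁻¹).1 := by rw [h2, one_mul]
        _ = e.u' := by rw [mul_assoc, show e.u * (U⁻¹).1 = 1 from h1, mul_one]
    have hV : (V⁻¹).1 = e.v' := by
      have h1 : V.1 * (V⁻¹).1 = 1 := congrArg Subtype.val (mul_inv_cancel V)
      have h2 : e.v' * e.v = 1 := mul_eq_one_comm.1 hv
      calc (V⁻¹).1 = e.v' * e.v * (V⁻¹).1 := by rw [h2, one_mul]
        _ = e.v' := by rw [mul_assoc, show e.v * (V⁻¹).1 = 1 from h1, mul_one]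
    -- the rescaling is conjugation by a diagonal matrix of determinant `d`, and `d = ±1`
    have hd2 : d = 1 ∨ d = -1 :=
      (by decide : ∀ d : ZMod 3, d ≠ 0 → d = 1 ∨ d = -1) d hd
    rcases hd2 with rfl | rfl
    · have hBe : B = U * S * U⁻¹ * (V * S * V⁻¹) := by
        apply Subtype.ext
        show (B : M3) = U.1 * X * (U⁻¹).1 * (V.1 * X * (V⁻¹).1)
        rw [hU, hV, ← heq]
        exact Matrix.ext fun i j => by rw [hB i j]; simp
      refine ⟨Q * U, Q * V, ?_⟩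
      show g = Q * U * S * (Q * U)⁻¹ * (Q * V * S * (Q * V)⁻¹)
      rw [hQ, hBe]; group
    · let D : SL3 (ZMod 3) := ⟨Matrix.diagonal ![1, -1, -1], by
        rw [Matrix.det_diagonal, Fin.prod_univ_three]; decide⟩
      have hBe : B = D * (U * S * U⁻¹ * (V * S * V⁻¹)) * D⁻¹ := by
        rw [eq_mul_inv_iff_mul_eq]
        apply Subtype.ext
        show (B : M3) * Matrix.diagonal ![1, -1, -1] =
          Matrix.diagonal ![1, -1, -1] * (U.1 * X * (U⁻¹).1 * (V.1 * X * (V⁻¹).1))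
        rw [hU, hV, ← heq]
        refine Matrix.ext fun i j => ?_
        rw [Matrix.mul_diagonal, Matrix.diagonal_mul, hB i j]
        fin_cases i <;> fin_cases j <;> simp
      refine ⟨Q * D * U, Q * D * V, ?_⟩
      show g = Q * D * U * S * (Q * D * U)⁻¹ * (Q * D * V * S * (Q * D * V)⁻¹)
      rw [hQ, hBe]; group
  have hdetg : (g : M3).det = 1 := g.2
  rcases normal_forms g hg with ⟨P, a₀, a₁, a₂, hP, h⟩ | ⟨P, x, y, a, b, c, hP, h⟩
  · have hd := (conj_of_mul_eq hP h).2.2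
    rw [hdetg, Matrix.det_fin_three] at hd
    simp at hd
    subst hd
    obtain ⟨e, he, heg⟩ := List.any_eq_true.1 (cyclic_covered a₂ a₁)
    exact ⟨P, e, he, hP, by rw [of_decide_eq_true heg]; exact h⟩
  · have hd := (conj_of_mul_eq hP h).2.2
    rw [hdetg, Matrix.det_fin_three] at hd
    simp at hd
    have key : c ≠ 0 ∧ x = -c :=
      (by decide : ∀ x c : ZMod 3, -(x * c) = 1 → c ≠ 0 ∧ x = -c) x c hd
    obtain ⟨hc, rfl⟩ := key
    obtain ⟨e, he, heg⟩ := List.any_eq_true.1 (derogatory_covered c y a b hc)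
    exact ⟨P, e, he, hP, by rw [of_decide_eq_true heg]; exact h⟩

end Three

end Cfsg.Agent.Spec.Three
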