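import Mathlib

/-!
Sylow 2-subgroups of `PGL(2,q)` for a Mersenne prime `q` meet pairwise nontrivially.
-/

set_option autoImplicit false

open Matrix
open scoped Pointwise MatrixGroups

namespace Cfsg.Agent.Spec.Mersenne

variable {F : Type*} [Field F]

def J : Matrix (Fin 2) (Fin 2) F := !![0, -1; 1, 0]

theorem J_sq : (J : Matrix (Fin 2) (Fin 2) F) * J = -1 := by
  ext i j; fin_cases i <;> fin_cases j <;> simp [J]

/-- Elements commuting or anticommuting with `J`. -/
def K : Subgroup (GL (Fin 2) F) where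
  carrier := {g | (g : Matrix (Fin 2) (Fin 2) F) * J = J * (g : Matrix (Fin 2) (Fin 2) F) ∨
    (g : Matrix (Fin 2) (Fin 2) F) * J = -(J * (g : Matrix (Fin 2) (Fin 2) F))}
  one_mem' := Or.inl (by simp)
  mul_mem' := fun {a b} ha hb => by
    simp only [Set.mem_ofPred_eq, Units.val_mul] at *
    rw [Matrix.mul_assoc]
    rcases ha with ha | ha <;> rcases hb with hb | hb <;> rw [hb]
    · left; rw [← Matrix.mul_assoc, ha, Matrix.mul_assoc]
    · right; rw [Matrix.mul_neg, ← Matrix.mul_assoc, ha, Matrix.mul_assoc]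
    · right; rw [← Matrix.mul_assoc, ha, Matrix.neg_mul, Matrix.mul_assoc]
    · left; rw [Matrix.mul_neg, ← Matrix.mul_assoc, ha, Matrix.neg_mul, neg_neg, Matrix.mul_assoc]
  inv_mem' := fun {a} ha => by
    simp only [Set.mem_ofPred_eq] at *
    have h1 : ((a⁻¹ : GL (Fin 2) F) : Matrix (Fin 2) (Fin 2) F) * a = 1 := a.inv_mul
    have h2 : (a : Matrix (Fin 2) (Fin 2) F) * ((a⁻¹ : GL (Fin 2) F) : Matrix (Fin 2) (Fin 2) F) = 1 :=
      a.mul_inv
    set B := ((a⁻¹ : GL (Fin 2) F) : Matrix (Fin 2) (Fin 2) F)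
    have key : B * J = B * (J * (a : Matrix (Fin 2) (Fin 2) F)) * B := by rw [Matrix.mul_assoc, Matrix.mul_assoc J, h2, mul_one]
    rcases ha with ha | ha
    · left
      rw [key, ← ha, ← Matrix.mul_assoc, h1, one_mul]
    · right
      rw [key, show J * (a : Matrix (Fin 2) (Fin 2) F) = -((a : Matrix (Fin 2) (Fin 2) F) * J) by
        rw [ha, neg_neg], Matrix.mul_neg, ← Matrix.mul_assoc, h1, one_mul, Matrix.neg_mul]

theorem center_le_K : Subgroup.center (GL (Fin 2) F) ≤ K := by
  intro z hz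
  left
  rw [Matrix.GeneralLinearGroup.center_eq_range_scalar] at hz
  obtain ⟨r, rfl⟩ := hz
  simp [Matrix.GeneralLinearGroup.coe_scalar, Matrix.scalar_apply, ← Matrix.smul_one_eq_diagonal]

variable (hF : ∀ x : F, x * x ≠ -1)

include hF in
theorem no_eigenvector (v : Fin 2 → F) (hv : v ≠ 0) (c : F) : J *ᵥ v ≠ c • v := by
  intro h
  have h0 := congrFun h 0
  have h1 := congrFun h 1
  simp [J, Matrix.mulVec, dotProduct, Fin.sum_univ_two] at h0 h1
  have h2 : (c * c + 1) * v 1 = 0 := by linear_combination (-c) * h1 - h0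
  rcases mul_eq_zero.1 h2 with h | h
  · exact hF c (by linear_combination h)
  · refine hv (funext fun i => ?_)
    fin_cases i <;> simp_all

include hF in
theorem eq_zero_of_singular {D : Matrix (Fin 2) (Fin 2) F} (s : F)
    (hDJ : D * J = s • (J * D)) (hD : D.det = 0) : D = 0 := by
  by_contra hne
  obtain ⟨v, hv, hDv⟩ := Matrix.exists_mulVec_eq_zero_iff.2 hD
  have hJv : D *ᵥ (J *ᵥ v) = 0 := by
    rw [Matrix.mulVec_mulVec, hDJ, Matrix.smul_mulVec, ← Matrix.mulVec_mulVec, hDv,
      Matrix.mulVec_zero, smul_zero]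
  by_cases hli : LinearIndependent F ![v, J *ᵥ v]
  · apply hne
    have htop : Submodule.span F (Set.range ![v, J *ᵥ v]) = ⊤ :=
      hli.span_eq_top_of_card_eq_finrank (by simp)
    apply Matrix.toLin'.injective
    rw [map_zero]
    refine LinearMap.ext_on_range htop fun i => ?_
    rw [Matrix.toLin'_apply, LinearMap.zero_apply]
    fin_cases i
    · exact hDv
    · exact hJv
  · rw [linearIndependent_fin2] at hli
    simp only [Matrix.cons_val_one, Matrix.cons_val_zero, not_and, not_forall, Classical.not_not] at hli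
    have hJne : J *ᵥ v ≠ 0 := by
      intro h
      exact no_eigenvector hF v hv 0 (by rw [h, zero_smul])
    obtain ⟨a, ha⟩ := hli hJne
    have ha0 : a ≠ 0 := by rintro rfl; rw [zero_smul] at ha; exact hv ha.symm
    refine no_eigenvector hF v hv a⁻¹ ?_
    rw [← ha, smul_smul, inv_mul_cancel₀ ha0, one_smul, ha]

include hF in
/-- The group `K` meets each conjugate outside the scalars. -/
theorem exists_common (g : GL (Fin 2) F) :
    ∃ c : GL (Fin 2) F, c ∈ K ∧ g⁻¹ * c * g ∈ K ∧ c ∉ Subgroup.center (GL (Fin 2) F) := by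
  let Jg : GL (Fin 2) F := Matrix.GeneralLinearGroup.mkOfDetNeZero J (by
    rw [Matrix.det_fin_two]; simp [J])
  set B : Matrix (Fin 2) (Fin 2) F := ((g * Jg * g⁻¹ : GL (Fin 2) F) : Matrix (Fin 2) (Fin 2) F) with hB
  have hB2 : B * B = -1 := by
    have hgi : (g : Matrix (Fin 2) (Fin 2) F) * ((g⁻¹ : GL (Fin 2) F) : Matrix (Fin 2) (Fin 2) F) = 1 := g.mul_inv
    rw [hB, ← Units.val_mul, show g * Jg * g⁻¹ * (g * Jg * g⁻¹) = g * (Jg * Jg) * g⁻¹ by group,
      Units.val_mul, Units.val_mul, Units.val_mul, show ((Jg : GL (Fin 2) F) : Matrix (Fin 2) (Fin 2) F) = J from rfl, J_sq,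
      Matrix.mul_neg, Matrix.neg_mul, mul_one, hgi]
  set C := J * B - B * J with hC
  have hCJ : C * J = -(J * C) := by
    rw [hC, Matrix.sub_mul, Matrix.mul_sub, Matrix.mul_assoc B J J, J_sq, ← Matrix.mul_assoc J J B,
      J_sq, Matrix.mul_assoc J B J]
    simp only [mul_neg, mul_one, neg_mul, one_mul]
    abel
  have hCB : C * B = -(B * C) := by
    rw [hC, Matrix.sub_mul, Matrix.mul_sub, Matrix.mul_assoc J B B, hB2, ← Matrix.mul_assoc B B J,
      hB2, Matrix.mul_assoc B J B]
    simp only [mul_neg, mul_one, neg_mul, one_mul]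
    abel
  have hJne : Jg ∉ Subgroup.center (GL (Fin 2) F) := by
    intro h
    rw [Matrix.GeneralLinearGroup.center_eq_range_scalar] at h
    obtain ⟨r, hr⟩ := h
    have h1 := congrArg (fun g : GL (Fin 2) F => (g : Matrix (Fin 2) (Fin 2) F) 1 0) hr
    simp [Jg, J, Matrix.GeneralLinearGroup.coe_scalar] at h1
  by_cases hC0 : C = 0
  · -- then `B` commutes with `J`, so `B = ± J`
    have hcomm : J * B = B * J := sub_eq_zero.1 hC0
    refine ⟨Jg, Or.inl rfl, ?_, hJne⟩
    have hmul : (B - J) * (B + J) = 0 := by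
      rw [Matrix.sub_mul, Matrix.mul_add, Matrix.mul_add, hB2, J_sq, hcomm]; abel
    have hcases : B = J ∨ B = -J := by
      by_cases hd : (B - J).det = 0
      · left
        refine sub_eq_zero.1 (eq_zero_of_singular hF 1 ?_ hd)
        rw [one_smul, Matrix.sub_mul, Matrix.mul_sub, hcomm]
      · right
        have hu : IsUnit (B - J) := (Matrix.isUnit_iff_isUnit_det _).2 (isUnit_iff_ne_zero.2 hd)
        exact eq_neg_of_add_eq_zero_left (hu.mul_right_eq_zero.1 hmul)
    have hgJ : B * (g : Matrix (Fin 2) (Fin 2) F) = (g : Matrix (Fin 2) (Fin 2) F) * J := by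
      rw [hB, ← Units.val_mul, show g * Jg * g⁻¹ * g = g * Jg by group]
      rfl
    rcases hcases with h | h
    · rw [h] at hgJ
      have e : g⁻¹ * Jg * g = Jg := by
        rw [mul_assoc, inv_mul_eq_iff_eq_mul]
        exact Units.ext hgJ
      rw [e]; exact Or.inl rfl
    · rw [h] at hgJ
      have hg : g ∈ (K : Subgroup (GL (Fin 2) F)) := Or.inr (by rw [← hgJ, Matrix.neg_mul])
      exact K.mul_mem (K.mul_mem (K.inv_mem hg) (Or.inl rfl)) hg
  · have hCd : C.det ≠ 0 := fun h => hC0 (eq_zero_of_singular hF (-1) (by rw [neg_one_smul]; exact hCJ) h)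
    let c : GL (Fin 2) F := Matrix.GeneralLinearGroup.mkOfDetNeZero C hCd
    refine ⟨c, Or.inr hCJ, Or.inr ?_, ?_⟩
    · have hgi : (g : Matrix (Fin 2) (Fin 2) F) * ((g⁻¹ : GL (Fin 2) F) : Matrix (Fin 2) (Fin 2) F) = 1 := g.mul_inv
      have e1 : g⁻¹ * c * g * Jg = g⁻¹ * (c * (g * Jg * g⁻¹)) * g := by group
      have e2 : Jg * (g⁻¹ * c * g) = g⁻¹ * ((g * Jg * g⁻¹) * c) * g := by group
      show ((g⁻¹ * c * g * Jg : GL (Fin 2) F) : Matrix (Fin 2) (Fin 2) F) =
        -((Jg * (g⁻¹ * c * g) : GL (Fin 2) F) : Matrix (Fin 2) (Fin 2) F)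
      rw [e1, e2]
      simp only [Units.val_mul] at hB ⊢
      rw [← hB, show (c : Matrix (Fin 2) (Fin 2) F) = C from rfl, hCB]
      simp only [Matrix.mul_neg, Matrix.neg_mul]
    · intro h
      rw [Matrix.GeneralLinearGroup.center_eq_range_scalar] at h
      obtain ⟨r, hr⟩ := h
      have hCr : C = (r : F) • (1 : Matrix (Fin 2) (Fin 2) F) := by
        rw [Matrix.smul_one_eq_diagonal]
        exact (congrArg (fun g : GL (Fin 2) F => (g : Matrix (Fin 2) (Fin 2) F)) hr).symm
      rw [hCr, Matrix.smul_mul, Matrix.mul_smul, one_mul, mul_one] at hCJ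
      have h10 := congrFun (congrFun hCJ 1) 0
      simp [J] at h10
      exact hF 1 (by
        rw [eq_neg_iff_add_eq_zero, ← two_mul] at h10
        rcases mul_eq_zero.1 h10 with h2 | h2
        · linear_combination h2
        · exact absurd h2 r.ne_zero)

section Finite

variable [Fintype F]

def colMat (s : F) (p : F × F) : Matrix (Fin 2) (Fin 2) F := !![p.1, -s * p.2; p.2, s * p.1]

include hF in
theorem card_K (h2 : (2 : F) ≠ 0) :
    Nat.card (K : Subgroup (GL (Fin 2) F)) = 2 * (Fintype.card F * Fintype.card F - 1) := by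
  classical
  have hdet : ∀ (s : F) (p : F × F), s ≠ 0 → p ≠ 0 → (colMat s p).det ≠ 0 := by
    intro s p hs hp h
    simp [colMat, Matrix.det_fin_two] at h
    have h' : p.1 * p.1 + p.2 * p.2 = 0 := mul_left_cancel₀ hs (by linear_combination h)
    by_cases h2' : p.2 = 0
    · rw [h2'] at h'
      exact hp (Prod.ext (by simpa using h') h2')
    · exact hF (p.1 / p.2) (by field_simp; linear_combination h')
  have hne : (1 : F) ≠ -1 := fun h => h2 (by linear_combination h)
  have hsq : ∀ b : Bool, (if b then (1 : F) else -1) ≠ 0 := fun b => by cases b <;> simp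
  let f : Bool × {p : F × F // p ≠ 0} → (K : Subgroup (GL (Fin 2) F)) := fun x =>
    ⟨Matrix.GeneralLinearGroup.mkOfDetNeZero (colMat (if x.1 then 1 else -1) x.2.1)
      (hdet _ _ (hsq x.1) x.2.2), by
      rcases x with ⟨b, p⟩
      cases b
      · right
        show colMat (-1) p.1 * J = -(J * colMat (-1) p.1)
        ext i j; fin_cases i <;> fin_cases j <;> simp [colMat, J]
      · left
        show colMat 1 p.1 * J = J * colMat 1 p.1
        ext i j; fin_cases i <;> fin_cases j <;> simp [colMat, J]⟩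
  have hf : Function.Bijective f := by
    constructor
    · rintro ⟨b, p⟩ ⟨b', p'⟩ h
      have hm : colMat (if b then 1 else -1) p.1 = colMat (if b' then 1 else -1) p'.1 :=
        congrArg (fun g : (K : Subgroup (GL (Fin 2) F)) => ((g : GL (Fin 2) F) : Matrix (Fin 2) (Fin 2) F)) h
      have h1 : p.1.1 = p'.1.1 := congrFun (congrFun hm 0) 0
      have h3 : p.1.2 = p'.1.2 := congrFun (congrFun hm 1) 0
      have hp : p = p' := Subtype.ext (Prod.ext h1 h3)
      subst hp
      have e1 := congrFun (congrFun hm 1) 1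
      have e2 := congrFun (congrFun hm 0) 1
      simp [colMat] at e1 e2
      have hz : ∀ a : F, a + a = 0 → a = 0 := fun a ha =>
        (mul_eq_zero.1 (show (2 : F) * a = 0 by linear_combination ha)).resolve_left h2
      cases b <;> cases b' <;> simp at e1 e2 ⊢
      · refine p.2 (Prod.ext (hz _ ?_) (hz _ ?_))
        · linear_combination (-1) * e1
        · first | linear_combination e2 | linear_combination (-1) * e2
      · refine p.2 (Prod.ext (hz _ ?_) (hz _ ?_))
        · linear_combination e1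
        · first | linear_combination e2 | linear_combination (-1) * e2
    · rintro ⟨g, hg⟩
      set A : Matrix (Fin 2) (Fin 2) F := (g : Matrix (Fin 2) (Fin 2) F) with hA
      have hAd : A.det ≠ 0 := (Matrix.GeneralLinearGroup.det g).ne_zero
      have hp : (A 0 0, A 1 0) ≠ 0 := by
        intro h
        rw [Prod.mk_eq_zero] at h
        exact hAd (by rw [Matrix.det_fin_two, h.1, h.2]; ring)
      rcases hg with hg | hg
      · refine ⟨(true, ⟨_, hp⟩), Subtype.ext (Units.ext (Matrix.ext fun i j => ?_))⟩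
        have h1 := congrFun (congrFun hg 0) 0
        have h3 := congrFun (congrFun hg 1) 0
        simp [J, ← hA, Matrix.mul_apply, Fin.sum_univ_two, Matrix.vecMul, dotProduct] at h1 h3
        show colMat 1 (A 0 0, A 1 0) i j = A i j
        fin_cases i <;> fin_cases j <;> simp [colMat]
        · linear_combination (-1) * h1
        · linear_combination (-1) * h3
      · refine ⟨(false, ⟨_, hp⟩), Subtype.ext (Units.ext (Matrix.ext fun i j => ?_))⟩
        have h1 := congrFun (congrFun hg 0) 0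
        have h3 := congrFun (congrFun hg 1) 0
        simp [J, ← hA, Matrix.mul_apply, Fin.sum_univ_two, Matrix.vecMul, dotProduct] at h1 h3
        show colMat (-1) (A 0 0, A 1 0) i j = A i j
        fin_cases i <;> fin_cases j <;> simp [colMat]
        · linear_combination (-1) * h1
        · linear_combination (-1) * h3
  rw [← Nat.card_eq_of_bijective f hf, Nat.card_prod, Nat.card_eq_fintype_card (α := Bool),
    Fintype.card_bool, Nat.card_eq_fintype_card, Fintype.card_subtype_compl,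
    Fintype.card_subtype_eq, Fintype.card_prod]

end Finite

theorem inf_conj_ne_bot {q k : ℕ} [Fact q.Prime] (hk : q + 1 = 2 ^ k) (hq : 7 ≤ q)
    (H : Sylow 2 (GL (Fin 2) (ZMod q) ⧸ Subgroup.center (GL (Fin 2) (ZMod q))))
    (x : GL (Fin 2) (ZMod q) ⧸ Subgroup.center (GL (Fin 2) (ZMod q))) :
    (H : Subgroup (GL (Fin 2) (ZMod q) ⧸ Subgroup.center (GL (Fin 2) (ZMod q)))) ⊓
      MulAut.conj x • (H : Subgroup _) ≠ ⊥ := by
  let Z : Subgroup (GL (Fin 2) (ZMod q)) := Subgroup.center (GL (Fin 2) (ZMod q))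
  have hk3 : 3 ≤ k := by
    by_contra h
    have : 2 ^ k ≤ 2 ^ 2 := Nat.pow_le_pow_right (by norm_num) (by omega)
    omega
  obtain ⟨t, ht⟩ : 4 ∣ q + 1 := hk ▸ (show (2 : ℕ) ^ 2 ∣ 2 ^ k from pow_dvd_pow 2 (by omega))
  have hF : ∀ y : ZMod q, y * y ≠ -1 := by
    intro y hy
    exact ZMod.exists_sq_eq_neg_one_iff.1 ⟨y, hy.symm⟩ (by omega)
  have h2 : (2 : ZMod q) ≠ 0 := by
    intro h
    have h' : ((2 : ℕ) : ZMod q) = 0 := by exact_mod_cast h
    rw [ZMod.natCast_eq_zero_iff] at h'
    have := Nat.le_of_dvd two_pos h'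
    omega
  let D : Subgroup (GL (Fin 2) (ZMod q) ⧸ Z) := (K : Subgroup (GL (Fin 2) (ZMod q))).map (QuotientGroup.mk' Z)
  have hidx : D.index = (K : Subgroup (GL (Fin 2) (ZMod q))).index :=
    Subgroup.index_map_eq _ (QuotientGroup.mk'_surjective Z)
      (by rw [QuotientGroup.ker_mk']; exact center_le_K)
  have hodd : ¬ 2 ∣ (K : Subgroup (GL (Fin 2) (ZMod q))).index := by
    intro h
    have hm := Subgroup.index_mul_card (K : Subgroup (GL (Fin 2) (ZMod q)))
    rw [card_K hF h2, Matrix.card_GL_field, Fin.prod_univ_two, ZMod.card] at hm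
    obtain ⟨u, hu⟩ := h
    rw [hu] at hm
    simp only [Fin.val_zero, Fin.val_one, pow_zero, pow_one, sq] at hm
    have hq2 : 0 < q * q - 1 := by
      have : 7 * 7 ≤ q * q := Nat.mul_le_mul hq hq
      omega
    have h5 : 4 * u = q * q - q := by
      apply Nat.eq_of_mul_eq_mul_right hq2
      rw [mul_comm (q * q - q), ← hm]; ring
    obtain ⟨s, hs⟩ : ∃ s, q = 4 * s + 3 := ⟨t - 1, by omega⟩
    rw [hs] at h5
    have h6 : (4 * s + 3) * (4 * s + 3) - (4 * s + 3) = 4 * (4 * s * s + 5 * s + 1) + 2 := by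
      have : (4 * s + 3) * (4 * s + 3) = 4 * (4 * s * s + 5 * s + 1) + 2 + (4 * s + 3) := by ring
      omega
    omega
  have hD2 : IsPGroup 2 D := by
    refine IsPGroup.of_card (n := k + 1) ?_
    have h1 := Subgroup.index_mul_card D
    rw [hidx] at h1
    have h3 := Subgroup.index_mul_card (K : Subgroup (GL (Fin 2) (ZMod q)))
    have h4 := Subgroup.card_eq_card_quotient_mul_card_subgroup Z
    have hZ : Nat.card Z = q - 1 := by
      show Nat.card (Subgroup.center (GL (Fin 2) (ZMod q))) = _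
      rw [Matrix.GeneralLinearGroup.center_eq_range_scalar,
        Nat.card_congr (MonoidHom.ofInjective (f := Matrix.GeneralLinearGroup.scalar (Fin 2))
          (fun a b h => Units.ext ((Matrix.scalar_inj).1
            (congrArg (fun g : GL (Fin 2) (ZMod q) => (g : Matrix (Fin 2) (Fin 2) (ZMod q))) h)))).toEquiv.symm,
        Nat.card_units, Nat.card_zmod]
    rw [hZ, ← h1, ← h3, card_K hF h2, ZMod.card] at h4
    have hi : 0 < (K : Subgroup (GL (Fin 2) (ZMod q))).index :=
      Nat.pos_of_ne_zero Subgroup.index_ne_zero_of_finite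
    rw [pow_succ, ← hk]
    have hqm : 0 < q - 1 := by omega
    have hfac : q * q - 1 = (q + 1) * (q - 1) := by simpa using Nat.mul_self_sub_mul_self_eq q 1
    rw [hfac, mul_assoc _ (Nat.card D)] at h4
    have h5 := Nat.eq_of_mul_eq_mul_left hi h4
    apply Nat.eq_of_mul_eq_mul_right hqm
    rw [← h5]; ring
  let P : Sylow 2 (GL (Fin 2) (ZMod q) ⧸ Z) := hD2.toSylow (hidx ▸ hodd)
  obtain ⟨y, rfl⟩ := MulAction.exists_smul_eq (GL (Fin 2) (ZMod q) ⧸ Z) P H
  obtain ⟨g, hg⟩ := QuotientGroup.mk'_surjective Z (y⁻¹ * x * y)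
  obtain ⟨c, hc1, hc2, hc3⟩ := exists_common hF g
  intro hbot
  have hmem : y * QuotientGroup.mk' Z c * y⁻¹ ∈
      ((y • P : Sylow 2 _) : Subgroup (GL (Fin 2) (ZMod q) ⧸ Z)) ⊓
        MulAut.conj x • ((y • P : Sylow 2 _) : Subgroup (GL (Fin 2) (ZMod q) ⧸ Z)) := by
    rw [Sylow.coe_subgroup_smul]
    refine Subgroup.mem_inf.2 ⟨Subgroup.smul_mem_pointwise_smul _ (MulAut.conj y) D ⟨c, hc1, rfl⟩, ?_⟩
    rw [Subgroup.mem_pointwise_smul_iff_inv_smul_mem, Subgroup.mem_pointwise_smul_iff_inv_smul_mem,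
      MulAut.smul_def, MulAut.smul_def, MulAut.conj_inv_apply, MulAut.conj_inv_apply]
    refine ⟨g⁻¹ * c * g, hc2, ?_⟩
    rw [map_mul, map_mul, map_inv, hg]
    group
  rw [hbot, Subgroup.mem_bot, conj_eq_one_iff, QuotientGroup.mk'_apply, QuotientGroup.eq_one_iff] at hmem
  exact hc3 hmem

end Cfsg.Agent.Spec.Mersenne
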