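import Mathlib

/-!
Sylow intersections in a group with a normal subgroup of `p`-power index.
-/

set_option autoImplicit false

open scoped Pointwise

namespace Cfsg.Agent.Spec

variable {G : Type*} [Group G] [Finite G]

theorem sylow_inf_normal_card (p k : ℕ) [Fact p.Prime] (N : Subgroup G) [N.Normal]
    (hidx : N.index = p ^ k) (H : Sylow p G) :
    Nat.card ((H : Subgroup G).subgroupOf N) = p ^ (Nat.card N).factorization p ∧
      Nat.card H = p ^ k * p ^ (Nat.card N).factorization p := by
  have hp : p.Prime := Fact.out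
  have hG : Nat.card G = Nat.card N * p ^ k := by rw [← hidx, Subgroup.card_mul_index]
  have hfac : (Nat.card G).factorization p = (Nat.card N).factorization p + k := by
    rw [hG, Nat.factorization_mul Nat.card_pos.ne' (pow_ne_zero k hp.ne_zero)]
    simp [hp.factorization_self]
  have hH : Nat.card H = p ^ ((Nat.card N).factorization p + k) := by
    rw [H.card_eq_multiplicity, hfac]
  obtain ⟨a, ha⟩ : ∃ a, Nat.card ((H : Subgroup G).subgroupOf N) = p ^ a :=
    IsPGroup.iff_card.1 (H.2.comap_of_injective N.subtype Subtype.val_injective)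
  have ha' : a ≤ (Nat.card N).factorization p := by
    have := Subgroup.card_subgroup_dvd_card ((H : Subgroup G).subgroupOf N)
    rw [ha] at this
    exact (hp.pow_dvd_iff_le_factorization Nat.card_pos.ne').1 this
  have hmul : Nat.card ((H : Subgroup G).subgroupOf N) * N.relIndex H = Nat.card H := by
    have e1 : Nat.card ((H : Subgroup G).subgroupOf N) = Nat.card (N.subgroupOf (H : Subgroup G)) := by
      refine Nat.card_congr ⟨fun x => ⟨⟨x.1.1, x.2⟩, x.1.2⟩, fun x => ⟨⟨x.1.1, x.2⟩, x.1.2⟩,
        fun _ => rfl, fun _ => rfl⟩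
    rw [e1, Subgroup.relIndex, Subgroup.card_mul_index]
  obtain ⟨b, hb, hb'⟩ := (Nat.dvd_prime_pow hp).1
    (hidx ▸ N.relIndex_dvd_index_of_normal (H : Subgroup G))
  rw [ha, hb', ← pow_add, hH] at hmul
  have := Nat.pow_right_injective hp.two_le hmul
  have haeq : a = (Nat.card N).factorization p := by omega
  exact ⟨by rw [ha, haeq], by rw [hH, pow_add, mul_comm]⟩

/-- If few Sylow subgroups of `N` meet a given one trivially then Sylow subgroups of `G` meet
nontrivially. -/
theorem inf_conj_ne_bot (p k : ℕ) [Fact p.Prime] (N : Subgroup G) [N.Normal]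
    (hidx : N.index = p ^ k)
    (hself : ∀ P : Sylow p N, Subgroup.normalizer ((P : Subgroup N) : Set N) = (P : Subgroup N))
    (U₀ : Sylow p N)
    (hfew : Nat.card {P : Sylow p N // (P : Subgroup N) ⊓ U₀ = ⊥} < p ^ k * Nat.card U₀)
    (H : Sylow p G) (x : G) :
    (H : Subgroup G) ⊓ MulAut.conj x • (H : Subgroup G) ≠ ⊥ := by
  classical
  intro hbot
  set K : Sylow p G := x • H
  have hbot' : (H : Subgroup G) ⊓ (K : Subgroup G) = ⊥ := hbot
  set c := (Nat.card N).factorization p
  let U : Sylow p N := Sylow.ofCard ((H : Subgroup G).subgroupOf N) (sylow_inf_normal_card p k N hidx H).1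
  let V : Sylow p N := Sylow.ofCard ((K : Subgroup G).subgroupOf N) (sylow_inf_normal_card p k N hidx K).1
  have hU : (U : Subgroup N) = (H : Subgroup G).subgroupOf N := Sylow.coe_ofCard _ _
  have hV : (V : Subgroup N) = (K : Subgroup G).subgroupOf N := Sylow.coe_ofCard _ _
  -- elements normalising `V` form a group of order at most `|K|`
  let S : Subgroup G :=
    { carrier := {g | (MulAut.conjNormal g : MulAut N) • V = V}
      one_mem' := by simp
      mul_mem' := fun {a b} ha hb => by
        simp only [Set.mem_ofPred_eq] at *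
        rw [map_mul, mul_smul, hb, ha]
      inv_mem' := fun {a} ha => by
        simp only [Set.mem_ofPred_eq] at *
        rw [map_inv, inv_smul_eq_iff, ha] }
  have hKS : (K : Subgroup G) ≤ S := by
    intro g hg
    show (MulAut.conjNormal g : MulAut N) • V = V
    refine Sylow.ext ?_
    rw [Sylow.pointwise_smul_def, hV]
    ext n
    rw [Subgroup.mem_pointwise_smul_iff_inv_smul_mem, Subgroup.mem_subgroupOf,
      Subgroup.mem_subgroupOf, MulAut.smul_def, ← map_inv, MulAut.conjNormal_apply]
    rw [Subgroup.mul_mem_cancel_right _ (inv_mem (inv_mem hg)),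
      Subgroup.mul_mem_cancel_left _ (inv_mem hg)]
  have hSN : S.subgroupOf N = (V : Subgroup N) := by
    rw [← hself V]
    ext n
    rw [Subgroup.mem_subgroupOf]
    refine Iff.trans ?_ (Sylow.smul_eq_iff_mem_normalizer (G := N) (g := n) (P := V))
    show (MulAut.conjNormal (n : G) : MulAut N) • V = V ↔ n • V = V
    rw [Sylow.smul_def, show (MulAut.conjNormal (n : G) : MulAut N) = MulAut.conj n from
      MulAut.conjNormal_val]
  have hcardS : S = (K : Subgroup G) := by
    refine (Subgroup.eq_of_le_of_card_ge hKS ?_).symm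
    have e1 : Nat.card (S.subgroupOf N) = Nat.card (N.subgroupOf S) :=
      Nat.card_congr ⟨fun x => ⟨⟨x.1.1, x.2⟩, x.1.2⟩, fun x => ⟨⟨x.1.1, x.2⟩, x.1.2⟩,
        fun _ => rfl, fun _ => rfl⟩
    have h1 : Nat.card S = Nat.card (S.subgroupOf N) * N.relIndex S := by
      rw [e1, Subgroup.relIndex, Subgroup.card_mul_index]
    have h2 : N.relIndex S ≤ p ^ k := Nat.le_of_dvd (pow_pos (Fact.out : p.Prime).pos k)
      (hidx ▸ N.relIndex_dvd_index_of_normal S)
    have hVc : Nat.card V = p ^ c := by
      show Nat.card (V : Subgroup N) = _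
      rw [hV]; exact (sylow_inf_normal_card p k N hidx K).1
    rw [h1, hSN, hVc, (sylow_inf_normal_card p k N hidx K).2, mul_comm (p ^ k)]
    exact Nat.mul_le_mul_left _ h2
  -- the orbit of `V` under `H` is regular and avoids `U`
  let f : H → {P : Sylow p N // (P : Subgroup N) ⊓ U = ⊥} := fun h =>
    ⟨(MulAut.conjNormal (h : G) : MulAut N) • V, by
      rw [Sylow.pointwise_smul_def, hV, hU, eq_bot_iff]
      intro n hn
      obtain ⟨hn1, hn2⟩ := Subgroup.mem_inf.1 hn
      rw [Subgroup.mem_pointwise_smul_iff_inv_smul_mem, Subgroup.mem_subgroupOf, MulAut.smul_def,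
        ← map_inv, MulAut.conjNormal_apply] at hn1
      rw [Subgroup.mem_subgroupOf] at hn2
      have hmem : (h : G)⁻¹ * (n : G) * ((h : G)⁻¹)⁻¹ ∈ (H : Subgroup G) ⊓ (K : Subgroup G) :=
        Subgroup.mem_inf.2 ⟨(H : Subgroup G).mul_mem ((H : Subgroup G).mul_mem
          ((H : Subgroup G).inv_mem h.2) hn2) ((H : Subgroup G).inv_mem ((H : Subgroup G).inv_mem h.2)), hn1⟩
      rw [hbot', Subgroup.mem_bot, conj_eq_one_iff] at hmem
      exact Subgroup.mem_bot.2 (Subtype.ext hmem)⟩
  have hf : Function.Injective f := by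
    intro h h' e
    have e' := congrArg Subtype.val e
    simp only [f] at e'
    have hmem : (h : G)⁻¹ * h' ∈ S := by
      show (MulAut.conjNormal ((h : G)⁻¹ * h') : MulAut N) • V = V
      rw [map_mul, mul_smul, ← e', map_inv, inv_smul_smul]
    rw [hcardS] at hmem
    have : (h : G)⁻¹ * h' ∈ (H : Subgroup G) ⊓ (K : Subgroup G) :=
      Subgroup.mem_inf.2 ⟨(H : Subgroup G).mul_mem ((H : Subgroup G).inv_mem h.2) h'.2, hmem⟩
    rw [hbot', Subgroup.mem_bot, inv_mul_eq_one] at this
    exact Subtype.ext this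
  obtain ⟨n, hn⟩ := MulAction.exists_smul_eq N U₀ U
  let e : {P : Sylow p N // (P : Subgroup N) ⊓ U = ⊥} ≃ {P : Sylow p N // (P : Subgroup N) ⊓ U₀ = ⊥} :=
    { toFun := fun P => ⟨n⁻¹ • P.1, by
        rw [show U₀ = n⁻¹ • U by rw [← hn, inv_smul_smul], Sylow.coe_subgroup_smul,
          Sylow.coe_subgroup_smul, ← Subgroup.smul_inf, P.2, Subgroup.smul_bot]⟩
      invFun := fun P => ⟨n • P.1, by
        rw [← hn, Sylow.coe_subgroup_smul, Sylow.coe_subgroup_smul, ← Subgroup.smul_inf, P.2,
          Subgroup.smul_bot]⟩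
      left_inv := fun P => Subtype.ext (smul_inv_smul n P.1)
      right_inv := fun P => Subtype.ext (inv_smul_smul n P.1) }
  have h1 : Nat.card H ≤ Nat.card {P : Sylow p N // (P : Subgroup N) ⊓ U = ⊥} :=
    Nat.card_le_card_of_injective f hf
  rw [Nat.card_congr e, (sylow_inf_normal_card p k N hidx H).2] at h1
  rw [U₀.card_eq_multiplicity] at hfew
  exact absurd hfew (not_lt.2 h1)

/-- The same with `N` identified with a concrete group `L`. -/
theorem inf_conj_ne_bot_of_equiv {L : Type*} [Group L] (p k : ℕ) [Fact p.Prime] (N : Subgroup G)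
    [N.Normal] (e : N ≃* L) (hidx : N.index = p ^ k)
    (hself : ∀ P : Sylow p L, Subgroup.normalizer ((P : Subgroup L) : Set L) = (P : Subgroup L))
    (U₀ : Sylow p L)
    (hfew : Nat.card {P : Sylow p L // (P : Subgroup L) ⊓ U₀ = ⊥} < p ^ k * Nat.card U₀)
    (H : Sylow p G) (x : G) :
    (H : Subgroup G) ⊓ MulAut.conj x • (H : Subgroup G) ≠ ⊥ := by
  haveI : Finite L := Finite.of_equiv N e.toEquiv
  have hs : Function.Surjective (e.toMonoidHom : N →* L) := e.surjective
  have hsi : Function.Surjective (e.symm.toMonoidHom : L →* N) := e.symm.surjective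
  refine inf_conj_ne_bot p k N hidx (fun P => ?_) (U₀.mapSurjective hsi) ?_ H x
  · have h := hself (P.mapSurjective hs)
    rw [Sylow.coe_mapSurjective,
      ← Subgroup.map_equiv_normalizer_eq (P : Subgroup N) e] at h
    exact Subgroup.map_injective e.injective h
  · have hc : Nat.card (U₀.mapSurjective hsi : Subgroup N) = Nat.card U₀ := by
      rw [Sylow.coe_mapSurjective]
      exact Nat.card_congr (Subgroup.equivMapOfInjective _ _ e.symm.injective).toEquiv.symm
    rw [hc]
    refine lt_of_le_of_lt ?_ hfew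
    refine Nat.card_le_card_of_injective (fun P => ⟨P.1.mapSurjective hs, ?_⟩) ?_
    · have h := congrArg (Subgroup.map e.toMonoidHom) P.2
      simp only [Subgroup.map_inf _ _ _ (show Function.Injective e.toMonoidHom from e.injective),
        Subgroup.map_bot, Sylow.coe_mapSurjective, Subgroup.map_map] at h
      rw [Sylow.coe_mapSurjective, ← h]
      have : (e.toMonoidHom).comp e.symm.toMonoidHom = MonoidHom.id L :=
        MonoidHom.ext fun l => e.apply_symm_apply l
      rw [this, Subgroup.map_id]
    · intro P Q h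
      have h' := congrArg (fun T : {P : Sylow p L // (P : Subgroup L) ⊓ U₀ = ⊥} => (T.1 : Subgroup L)) h
      simp only [Sylow.coe_mapSurjective] at h'
      exact Subtype.ext (Sylow.ext (Subgroup.map_injective e.injective h'))

end Cfsg.Agent.Spec
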