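import Cfsg.Agent.UnipGL.Index
import Cfsg.Agent.Spec.SylowPairs

/-!
Sylow 2-subgroups of `GL_n(2)`.
-/

set_option autoImplicit false

open Matrix
open scoped Pointwise MatrixGroups

namespace Cfsg.Agent.Spec

open Cfsg.Agent.UnipGL

variable {n : ℕ}

local notation "F₂" => ZMod 2
local notation "U" => upperTriangularGL n F₂

theorem parabolic_ones (F : Type*) [Field F] :
    parabolicGL n F (fun _ => 1) = upperTriangularGL n F := by
  have hlab : ∀ i : Fin n, compLabel (fun _ : Fin n => 1) i = i.val := by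
    intro i
    unfold compLabel
    have : ∀ j : Fin n, (∑ _k ∈ Finset.univ.filter (fun k : Fin n => k ≤ j), 1) = j.val + 1 := by
      intro j
      rw [Finset.sum_const, smul_eq_mul, mul_one, ← Fin.card_Iic j]
      congr 1; ext k; simp
    simp only [this]
    refine (congrArg Finset.card ?_).trans (Fin.card_Iio i)
    ext j
    simp only [Finset.mem_filter, Finset.mem_univ, true_and, Finset.mem_Iio, Fin.lt_def]
    omega
  ext g
  constructor
  · intro h i j hij
    exact h (show compLabel _ j < compLabel _ i by rw [hlab, hlab]; exact hij)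
  · intro h i j hij
    rw [hlab, hlab] at hij
    exact h (show (id j : Fin n) < id i from hij)

theorem card_upper_two : Nat.card U = 2 ^ (n.choose 2) := by
  rw [← parabolic_ones, card_parabolicGL F₂ _ (by simp)]
  simp [qfact, qint]

theorem index_upper_two_odd : ¬ 2 ∣ (upperTriangularGL n F₂).index := by
  intro h
  have hidx := index_parabolicGL F₂ (fun _ : Fin n => 1) (by simp)
  rw [parabolic_ones] at hidx
  have hodd : ¬ 2 ∣ qfact (Fintype.card F₂) n := by
    intro hd
    obtain ⟨j, _, hj⟩ := (Prime.dvd_finsetProd_iff (Nat.prime_two.prime) _).1 hd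
    rw [qint, Finset.sum_range_succ', pow_zero, ZMod.card] at hj
    have : 2 ∣ ∑ k ∈ Finset.range j, 2 ^ (k + 1) :=
      Finset.dvd_sum fun k _ => dvd_pow_self 2 (by omega)
    omega
  exact hodd (hidx ▸ dvd_mul_of_dvd_left h _)

/-- The upper triangular group as a Sylow 2-subgroup. -/
noncomputable def upperSylow (n : ℕ) : Sylow 2 (GL (Fin n) F₂) :=
  (IsPGroup.of_card (card_upper_two (n := n))).toSylow index_upper_two_odd

theorem coe_upperSylow : (upperSylow n : Subgroup (GL (Fin n) F₂)) = U := rfl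

theorem diag_eq_one {b : GL (Fin n) F₂} (hb : b ∈ U) (i : Fin n) :
    (b : Matrix (Fin n) (Fin n) F₂) i i = 1 := by
  have h := (Matrix.GeneralLinearGroup.det b).ne_zero
  rw [Matrix.GeneralLinearGroup.val_det_apply, Matrix.det_of_isUpperTriangular hb] at h
  have h' := Finset.prod_ne_zero_iff.1 h i (Finset.mem_univ i)
  revert h'
  generalize (b : Matrix (Fin n) (Fin n) F₂) i i = x
  revert x; decide

/-- The elementary transvection as an element of `GL`. -/
noncomputable def tv (i j : Fin n) (h : i ≠ j) : GL (Fin n) F₂ :=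
  Matrix.GeneralLinearGroup.mkOfDetNeZero (Matrix.transvection i j 1)
    (by rw [Matrix.det_transvection_of_ne i j h]; exact one_ne_zero)

theorem tv_mem {i j : Fin n} (h : i < j) : tv i j h.ne ∈ U := by
  intro a b hab
  show Matrix.transvection i j (1 : F₂) a b = 0
  have hab' : b < a := hab
  rw [Matrix.transvection, Matrix.add_apply, Matrix.one_apply_ne hab'.ne', zero_add,
    Matrix.single_apply_of_ne]
  rintro ⟨rfl, rfl⟩
  exact absurd hab' (not_lt.2 h.le)

theorem tv_conj (w : Equiv.Perm (Fin n)) {i j : Fin n} (h : i ≠ j) :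
    permGL w * tv i j h * (permGL w)⁻¹ = tv (w i) (w j) (w.injective.ne h) := by
  rw [mul_inv_eq_iff_eq_mul]
  refine Units.ext (Matrix.ext fun a b => ?_)
  simp only [Units.val_mul, Matrix.mul_apply, permGL_apply, tv,
    Matrix.GeneralLinearGroup.val_mkOfDetNeZero, ite_mul, one_mul, zero_mul, mul_ite, mul_one,
    mul_zero, Finset.sum_ite_eq', Finset.mem_univ, if_true]
  obtain ⟨a, rfl⟩ := w.surjective a
  simp only [EmbeddingLike.apply_eq_iff_eq, Finset.sum_ite_eq, Finset.mem_univ, if_true]
  simp [Matrix.transvection, Matrix.single_apply, Matrix.one_apply]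

theorem tv_ne_one {i j : Fin n} (h : i ≠ j) : tv i j h ≠ 1 := by
  intro e
  have := congrFun (congrFun (congrArg (fun g : GL (Fin n) F₂ =>
    (g : Matrix (Fin n) (Fin n) F₂)) e) i) j
  simp [tv, Matrix.transvection, Matrix.one_apply, h] at this

theorem conj_upper_eq {b : GL (Fin n) F₂} (hb : b ∈ U) : MulAut.conj b • U = U := by
  exact Subgroup.conj_smul_eq_self_of_mem hb

theorem normalizer_upper :
    Subgroup.normalizer ((U : Subgroup (GL (Fin n) F₂)) : Set (GL (Fin n) F₂)) = U := by
  refine le_antisymm (fun g hg => ?_) Subgroup.le_normalizer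
  obtain ⟨b₁, h1, b₂, h2, w, rfl⟩ := bruhat g
  have hw : permGL w ∈ Subgroup.normalizer ((U : Subgroup (GL (Fin n) F₂)) : Set (GL (Fin n) F₂)) := by
    have := mul_mem (mul_mem (inv_mem (Subgroup.le_normalizer h1)) hg) (inv_mem (Subgroup.le_normalizer h2))
    simpa [mul_assoc] using this
  have hmono : StrictMono w := by
    intro i j hij
    by_contra hlt
    have hji : w j < w i := lt_of_le_of_ne (not_lt.1 hlt) (w.injective.ne hij.ne')
    have hmem := (Subgroup.mem_normalizer_iff.1 hw (tv i j hij.ne)).1 (tv_mem hij)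
    rw [tv_conj] at hmem
    have h0 : Matrix.transvection (w i) (w j) (1 : F₂) (w i) (w j) = 0 := hmem hji
    simp [Matrix.transvection, Matrix.one_apply, hji.ne'] at h0
  have hw1 : w = 1 := Equiv.ext fun i => congrFun hmono.eq_id i
  subst hw1
  refine mul_mem (mul_mem h1 ?_) h2
  intro i j hij
  rw [permGL_apply, if_neg]
  exact (show (j : Fin n) < i from hij).ne'

theorem few_opposite :
    Nat.card {P : Sylow 2 (GL (Fin n) F₂) // (P : Subgroup (GL (Fin n) F₂)) ⊓ (upperSylow n : Subgroup (GL (Fin n) F₂)) = ⊥} ≤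
      Nat.card U := by
  classical
  refine Nat.card_le_card_of_surjective
    (fun b : U => (⟨((b : GL (Fin n) F₂) * permGL Fin.revPerm) • upperSylow n, ?_⟩ :
      {P : Sylow 2 (GL (Fin n) F₂) // (P : Subgroup (GL (Fin n) F₂)) ⊓ (upperSylow n : Subgroup (GL (Fin n) F₂)) = ⊥})) ?_
  · rw [Sylow.coe_subgroup_smul, coe_upperSylow, map_mul, mul_smul]
    nth_rewrite 3 [← conj_upper_eq b.2]
    rw [← Subgroup.smul_inf]
    suffices h : MulAut.conj (permGL Fin.revPerm : GL (Fin n) F₂) • U ⊓ U = ⊥ by
      rw [h, Subgroup.smul_bot]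
    rw [eq_bot_iff]
    intro g hg
    obtain ⟨hg1, hg2⟩ := Subgroup.mem_inf.1 hg
    rw [Subgroup.mem_pointwise_smul_iff_inv_smul_mem, MulAut.smul_def, MulAut.conj_inv_apply] at hg1
    refine Subgroup.mem_bot.2 (Units.ext (Matrix.ext fun i j => ?_))
    rcases lt_trichotomy i j with h | h | h
    · rw [Units.val_one, Matrix.one_apply_ne h.ne]
      have hrev : Fin.rev j < Fin.rev i := Fin.rev_lt_rev.2 h
      have h0 : (((permGL Fin.revPerm : GL (Fin n) F₂)⁻¹ * g * permGL Fin.revPerm : GL (Fin n) F₂) :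
          Matrix (Fin n) (Fin n) F₂) (Fin.rev i) (Fin.rev j) = 0 := hg1 hrev
      simp only [Units.val_mul, Matrix.mul_apply, permGL_apply, mul_ite, mul_one, mul_zero,
        Finset.sum_ite_eq', Finset.mem_univ, if_true] at h0
      rw [Fin.revPerm_apply, Fin.rev_rev] at h0
      have hinv : ∀ a b : Fin n, ((permGL Fin.revPerm : GL (Fin n) F₂)⁻¹ : GL (Fin n) F₂).1 a b =
          if a = Fin.rev b then 1 else 0 := by
        intro a b
        have : (permGL Fin.revPerm : GL (Fin n) F₂)⁻¹ = permGL Fin.revPerm := by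
          rw [inv_eq_iff_mul_eq_one, ← permGL_mul]
          refine Units.ext (Matrix.ext fun a b => ?_)
          rw [permGL_apply]
          simp [Matrix.one_apply]
        rw [this, permGL_apply, Fin.revPerm_apply]
      simp only [hinv, ite_mul, one_mul, zero_mul] at h0
      rw [Finset.sum_eq_single i] at h0
      · simpa using h0
      · intro c _ hc
        rw [if_neg]
        intro hc'
        exact hc (Fin.rev_injective hc'.symm)
      · simp
    · subst h; rw [diag_eq_one hg2, Units.val_one, Matrix.one_apply_eq]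
    · rw [hg2 h, Units.val_one, Matrix.one_apply_ne h.ne']
  · rintro ⟨P, hP⟩
    obtain ⟨g, rfl⟩ := MulAction.exists_smul_eq (GL (Fin n) F₂) (upperSylow n) P
    obtain ⟨b₁, h1, b₂, h2, w, rfl⟩ := bruhat g
    rw [Sylow.coe_subgroup_smul, coe_upperSylow, map_mul, mul_smul, conj_upper_eq h2, map_mul,
      mul_smul] at hP
    nth_rewrite 2 [← conj_upper_eq h1] at hP
    rw [← Subgroup.smul_inf, ← Subgroup.smul_bot (MulAut.conj b₁), smul_left_cancel_iff] at hP
    have hanti : StrictAnti w := by
      intro i j hij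
      by_contra hlt
      have hji : w i < w j := lt_of_le_of_ne (not_lt.1 hlt) (w.injective.ne hij.ne)
      have hmem : tv (w i) (w j) hji.ne ∈ MulAut.conj (permGL w : GL (Fin n) F₂) • U ⊓ U := by
        refine Subgroup.mem_inf.2 ⟨?_, tv_mem hji⟩
        rw [← tv_conj w hij.ne]
        exact Subgroup.smul_mem_pointwise_smul _ (MulAut.conj (permGL w : GL (Fin n) F₂)) _ (tv_mem hij)
      rw [hP, Subgroup.mem_bot] at hmem
      exact tv_ne_one _ hmem
    have hw : w = Fin.revPerm := by
      have hm : StrictMono (fun i => Fin.rev (w i)) := fun i j hij => Fin.rev_lt_rev.2 (hanti hij)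
      refine Equiv.ext fun i => ?_
      have := congrArg Fin.rev (congrFun hm.eq_id i)
      rwa [Fin.rev_rev] at this
    subst hw
    refine ⟨⟨b₁, h1⟩, Subtype.ext ?_⟩
    have hb2 : b₂ • upperSylow n = upperSylow n :=
      Sylow.smul_eq_iff_mem_normalizer.2 (Subgroup.le_normalizer h2)
    show (b₁ * permGL Fin.revPerm) • upperSylow n = (b₁ * permGL Fin.revPerm * b₂) • upperSylow n
    rw [mul_smul _ b₂, hb2]

theorem normalizer_sylow_two (P : Sylow 2 (GL (Fin n) F₂)) :
    Subgroup.normalizer ((P : Subgroup (GL (Fin n) F₂)) : Set (GL (Fin n) F₂)) = (P : Subgroup (GL (Fin n) F₂)) := by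
  obtain ⟨g, rfl⟩ := MulAction.exists_smul_eq (GL (Fin n) F₂) (upperSylow n) P
  rw [Sylow.coe_subgroup_smul, coe_upperSylow]
  show Subgroup.normalizer ((Subgroup.map (MulAut.conj g).toMonoidHom U : Subgroup (GL (Fin n) F₂)) : Set (GL (Fin n) F₂)) =
    Subgroup.map (MulAut.conj g).toMonoidHom U
  rw [← Subgroup.map_equiv_normalizer_eq U (MulAut.conj g), normalizer_upper]

theorem inf_conj_ne_bot_GL_two {G : Type*} [Group G] [Finite G] (N : Subgroup G) [N.Normal]
    (e : N ≃* GL (Fin n) F₂) (hidx : N.index = 2) (H : Sylow 2 G) (x : G) :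
    (H : Subgroup G) ⊓ MulAut.conj x • (H : Subgroup G) ≠ ⊥ := by
  refine inf_conj_ne_bot_of_equiv 2 1 N e (by rw [hidx, pow_one]) normalizer_sylow_two
    (upperSylow n) ?_ H x
  have h := few_opposite (n := n)
  have h0 : 0 < Nat.card (upperTriangularGL n F₂) := Nat.card_pos
  rw [coe_upperSylow] at h ⊢
  rw [pow_one]
  omega

end Cfsg.Agent.Spec
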