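import Cfsg.Agent.Spec.SylowPairs

/-!
Sylow subgroups meet non-trivially when the Sylow subgroups of the normal subgroup opposite to a
given one are at most `|H|` in number and one of them has a non-trivial stabiliser.
-/

set_option autoImplicit false

open scoped Pointwise

namespace Cfsg.Agent.Spec

variable {G : Type*} [Group G] [Finite G]

theorem conjNormal_smul_coe (N : Subgroup G) [N.Normal] (p : ℕ) [Fact p.Prime] (n : N) (X : Sylow p N) :
    (MulAut.conjNormal (n : G) : MulAut N) • X = n • X := by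
  rw [Sylow.smul_def, show (MulAut.conjNormal (n : G) : MulAut N) = MulAut.conj n from
    MulAut.conjNormal_val]

/-- The stabiliser of `H ∩ N` among Sylow subgroups of `N` is `H`. -/
theorem stab_sylow_eq (p k : ℕ) [Fact p.Prime] (N : Subgroup G) [N.Normal] (hidx : N.index = p ^ k)
    (hself : ∀ P : Sylow p N, Subgroup.normalizer ((P : Subgroup N) : Set N) = (P : Subgroup N))
    (H : Sylow p G) (U : Sylow p N) (hU : (U : Subgroup N) = (H : Subgroup G).subgroupOf N) (g : G) :
    (MulAut.conjNormal g : MulAut N) • U = U ↔ g ∈ (H : Subgroup G) := by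
  classical
  set c := (Nat.card N).factorization p
  let S : Subgroup G :=
    { carrier := {g | (MulAut.conjNormal g : MulAut N) • U = U}
      one_mem' := by simp
      mul_mem' := fun {a b} ha hb => by
        simp only [Set.mem_ofPred_eq] at *
        rw [map_mul, mul_smul, hb, ha]
      inv_mem' := fun {a} ha => by
        simp only [Set.mem_ofPred_eq] at *
        rw [map_inv, inv_smul_eq_iff, ha] }
  have hKS : (H : Subgroup G) ≤ S := by
    intro g hg
    show (MulAut.conjNormal g : MulAut N) • U = U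
    refine Sylow.ext ?_
    rw [Sylow.pointwise_smul_def, hU]
    ext n
    rw [Subgroup.mem_pointwise_smul_iff_inv_smul_mem, Subgroup.mem_subgroupOf,
      Subgroup.mem_subgroupOf, MulAut.smul_def, ← map_inv, MulAut.conjNormal_apply]
    rw [Subgroup.mul_mem_cancel_right _ (inv_mem (inv_mem hg)),
      Subgroup.mul_mem_cancel_left _ (inv_mem hg)]
  have hSN : S.subgroupOf N = (U : Subgroup N) := by
    rw [← hself U]
    ext n
    rw [Subgroup.mem_subgroupOf]
    refine Iff.trans ?_ (Sylow.smul_eq_iff_mem_normalizer (G := N) (g := n) (P := U))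
    show (MulAut.conjNormal (n : G) : MulAut N) • U = U ↔ n • U = U
    rw [conjNormal_smul_coe]
  have hS : S = (H : Subgroup G) := by
    refine (Subgroup.eq_of_le_of_card_ge hKS ?_).symm
    have e1 : Nat.card (S.subgroupOf N) = Nat.card (N.subgroupOf S) :=
      Nat.card_congr ⟨fun x => ⟨⟨x.1.1, x.2⟩, x.1.2⟩, fun x => ⟨⟨x.1.1, x.2⟩, x.1.2⟩,
        fun _ => rfl, fun _ => rfl⟩
    have h1 : Nat.card S = Nat.card (S.subgroupOf N) * N.relIndex S := by
      rw [e1, Subgroup.relIndex, Subgroup.card_mul_index]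
    have h2 : N.relIndex S ≤ p ^ k := Nat.le_of_dvd (pow_pos (Fact.out : p.Prime).pos k)
      (hidx ▸ N.relIndex_dvd_index_of_normal S)
    have hUc : Nat.card U = p ^ c := by
      show Nat.card (U : Subgroup N) = _
      rw [hU]; exact (sylow_inf_normal_card p k N hidx H).1
    rw [h1, hSN, hUc, (sylow_inf_normal_card p k N hidx H).2, mul_comm (p ^ k)]
    exact Nat.mul_le_mul_left _ h2
  rw [← hS]
  exact Iff.rfl

/-- If at most `|H|` Sylow subgroups of `N` meet `U₀` trivially and one of them, with `U₀`, has a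
non-trivial stabiliser then Sylow subgroups of `G` meet nontrivially. -/
theorem inf_conj_ne_bot_of_fixed (p k : ℕ) [Fact p.Prime] (N : Subgroup G) [N.Normal]
    (hidx : N.index = p ^ k)
    (hself : ∀ P : Sylow p N, Subgroup.normalizer ((P : Subgroup N) : Set N) = (P : Subgroup N))
    (U₀ : Sylow p N)
    (hfew : Nat.card {P : Sylow p N // (P : Subgroup N) ⊓ U₀ = ⊥} ≤ p ^ k * Nat.card U₀)
    (P₀ : Sylow p N) (hP₀ : (P₀ : Subgroup N) ⊓ U₀ = ⊥) (g₀ : G) (hg₀ : g₀ ≠ 1)
    (hgU : (MulAut.conjNormal g₀ : MulAut N) • U₀ = U₀)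
    (hgP : (MulAut.conjNormal g₀ : MulAut N) • P₀ = P₀)
    (H : Sylow p G) (x : G) :
    (H : Subgroup G) ⊓ MulAut.conj x • (H : Subgroup G) ≠ ⊥ := by
  classical
  intro hbot
  set K : Sylow p G := x • H
  have hbot' : (H : Subgroup G) ⊓ (K : Subgroup G) = ⊥ := hbot
  let U : Sylow p N := Sylow.ofCard ((H : Subgroup G).subgroupOf N) (sylow_inf_normal_card p k N hidx H).1
  let V : Sylow p N := Sylow.ofCard ((K : Subgroup G).subgroupOf N) (sylow_inf_normal_card p k N hidx K).1
  have hU : (U : Subgroup N) = (H : Subgroup G).subgroupOf N := Sylow.coe_ofCard _ _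
  have hV : (V : Subgroup N) = (K : Subgroup G).subgroupOf N := Sylow.coe_ofCard _ _
  have stU := stab_sylow_eq p k N hidx hself H U hU
  have stV := stab_sylow_eq p k N hidx hself K V hV
  have hUV : (V : Subgroup N) ⊓ U = ⊥ := by
    rw [eq_bot_iff, hV, hU]
    intro n hn
    obtain ⟨hn1, hn2⟩ := Subgroup.mem_inf.1 hn
    rw [Subgroup.mem_subgroupOf] at hn1 hn2
    have : (n : G) ∈ (H : Subgroup G) ⊓ (K : Subgroup G) := Subgroup.mem_inf.2 ⟨hn2, hn1⟩
    rw [hbot', Subgroup.mem_bot] at this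
    exact Subgroup.mem_bot.2 (Subtype.ext this)
  let f : H → {P : Sylow p N // (P : Subgroup N) ⊓ U = ⊥} := fun h =>
    ⟨(MulAut.conjNormal (h : G) : MulAut N) • V, by
      have e : (U : Subgroup N) = (MulAut.conjNormal (h : G) : MulAut N) • (U : Subgroup N) := by
        conv_lhs => rw [← (stU h).2 h.2]
        rw [Sylow.pointwise_smul_def]
      rw [Sylow.pointwise_smul_def, e, ← Subgroup.smul_inf, hUV, Subgroup.smul_bot]⟩
  have hf : Function.Injective f := by
    intro h h' e
    have e' := congrArg Subtype.val e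
    simp only [f] at e'
    have hmem : (h : G)⁻¹ * h' ∈ (K : Subgroup G) := (stV _).1 (by
      rw [map_mul, mul_smul, ← e', map_inv, inv_smul_smul])
    have : (h : G)⁻¹ * h' ∈ (H : Subgroup G) ⊓ (K : Subgroup G) :=
      Subgroup.mem_inf.2 ⟨(H : Subgroup G).mul_mem ((H : Subgroup G).inv_mem h.2) h'.2, hmem⟩
    rw [hbot', Subgroup.mem_bot, inv_mul_eq_one] at this
    exact Subtype.ext this
  obtain ⟨n, hn⟩ := MulAction.exists_smul_eq N U₀ U
  let e : {P : Sylow p N // (P : Subgroup N) ⊓ U = ⊥} ≃ {P : Sylow p N // (P : Subgroup N) ⊓ U₀ = ⊥} :=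
    { toFun := fun P => ⟨n⁻¹ • P.1, by
        rw [show U₀ = n⁻¹ • U by rw [← hn, inv_smul_smul], Sylow.coe_subgroup_smul,
          Sylow.coe_subgroup_smul, ← Subgroup.smul_inf, P.2, Subgroup.smul_bot]⟩
      invFun := fun P => ⟨n • P.1, by
        rw [← hn, Sylow.coe_subgroup_smul, Sylow.coe_subgroup_smul, ← Subgroup.smul_inf, P.2,
          Subgroup.smul_bot]⟩
      left_inv := fun P => Subtype.ext (smul_inv_smul n P.1)
      right_inv := fun P => Subtype.ext (inv_smul_smul n P.1) }
  have hsurj : Function.Surjective f := by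
    haveI := Fintype.ofFinite H
    haveI := Fintype.ofFinite {P : Sylow p N // (P : Subgroup N) ⊓ U = ⊥}
    refine (hf.bijective_of_nat_card_le ?_).2
    rw [Nat.card_congr e]
    rw [U₀.card_eq_multiplicity] at hfew
    exact hfew.trans (le_of_eq (sylow_inf_normal_card p k N hidx H).2.symm)
  obtain ⟨h, hh⟩ := hsurj (e.symm ⟨P₀, hP₀⟩)
  have hh' : (MulAut.conjNormal (h : G) : MulAut N) • V = n • P₀ := congrArg Subtype.val hh
  set g₁ := (n : G) * g₀ * (n : G)⁻¹
  have g1U : (MulAut.conjNormal g₁ : MulAut N) • U = U := by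
    rw [← hn, ← conjNormal_smul_coe, ← mul_smul, ← map_mul, inv_mul_cancel_right, map_mul, mul_smul, hgU]
  have g1P : (MulAut.conjNormal g₁ : MulAut N) • (n • P₀) = n • P₀ := by
    rw [← conjNormal_smul_coe, ← mul_smul, ← map_mul, inv_mul_cancel_right, map_mul, mul_smul, hgP]
  have hH : (h : G)⁻¹ * g₁ * h ∈ (H : Subgroup G) :=
    mul_mem (mul_mem (inv_mem h.2) ((stU _).1 g1U)) h.2
  have hK : (h : G)⁻¹ * g₁ * h ∈ (K : Subgroup G) := (stV _).1 (by
    rw [map_mul, mul_smul, hh', map_mul, mul_smul, g1P, ← hh', map_inv, inv_smul_smul])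
  have h1 : (h : G)⁻¹ * g₁ * ((h : G)⁻¹)⁻¹ ∈ (H : Subgroup G) ⊓ (K : Subgroup G) := by
    rw [inv_inv]; exact Subgroup.mem_inf.2 ⟨hH, hK⟩
  rw [hbot', Subgroup.mem_bot, conj_eq_one_iff, conj_eq_one_iff] at h1
  exact hg₀ h1

end Cfsg.Agent.Spec
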