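import Cfsg.Agent.Spec.AltSixSylowData
import Cfsg.Agent.Spec.SylowPairsFixed
import Cfsg.Agent.H77.AltSix
import Cfsg.Agent.Known.SylowTwoSym

/-! Sylow 2-subgroups of the automorphism group of `A_6` meet non-trivially. -/

set_option autoImplicit false

open scoped Pointwise

namespace Cfsg.Agent.Spec.AltSixSylow

open Equiv

variable {G : Type*} [Group G] [Finite G] (N : Subgroup G) [N.Normal]

/-- The Sylow subgroup of `A_6` given by `u0`. -/
def u0Sub : Subgroup (alternatingGroup (Fin 6)) where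
  carrier := {a | (a : Perm (Fin 6)) ∈ u0}
  mul_mem' ha hb := u0_closed _ ha _ hb
  one_mem' := u0_one
  inv_mem' ha := u0_inv _ ha

theorem card_u0Sub : Nat.card u0Sub = 8 := by
  have e : u0Sub ≃ {x // x ∈ u0.toFinset} :=
    { toFun := fun a => ⟨(a.1 : Perm (Fin 6)), List.mem_toFinset.2 a.2⟩
      invFun := fun x => ⟨⟨x.1, u0_sign _ (List.mem_toFinset.1 x.2)⟩, List.mem_toFinset.1 x.2⟩
      left_inv := fun _ => rfl
      right_inv := fun _ => rfl }
  rw [Nat.card_congr e, Nat.card_eq_fintype_card, Fintype.card_coe, List.toFinset_card_of_nodup u0_nodup]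
  rfl

theorem inf_conj_ne_bot_aut_alt_six (e : N ≃* alternatingGroup (Fin 6)) (hidx : N.index = 4)
    (hC : Subgroup.centralizer (N : Set G) = ⊥) (H : Sylow 2 G) (x : G) :
    (H : Subgroup G) ⊓ MulAut.conj x • (H : Subgroup G) ≠ ⊥ := by
  classical
  have hN : Nat.card N = 360 := by
    rw [Nat.card_congr e.toEquiv, nat_card_alternatingGroup, Nat.card_fin]; rfl
  have hf : (Nat.card N).factorization 2 = 3 := by
    rw [hN, show 360 = 2 ^ 3 * 45 by norm_num, Nat.factorization_mul (by norm_num) (by norm_num)]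
    rw [Nat.Prime.factorization_pow Nat.prime_two]
    simp [Nat.factorization_eq_zero_of_not_dvd]
  have hcU : Nat.card (u0Sub.map e.symm.toMonoidHom : Subgroup N) = 2 ^ (Nat.card N).factorization 2 := by
    rw [hf, Subgroup.card_map_of_injective (f := e.symm.toMonoidHom) e.symm.injective, card_u0Sub]; rfl
  let U₀ : Sylow 2 N := Sylow.ofCard _ hcU
  have hU₀ : ∀ n : N, n ∈ (U₀ : Subgroup N) ↔ ((e n : alternatingGroup (Fin 6)) : Perm (Fin 6)) ∈ u0 := by
    intro n
    rw [show (U₀ : Subgroup N) = u0Sub.map e.symm.toMonoidHom from Sylow.coe_ofCard _ _]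
    constructor
    · rintro ⟨a, ha, rfl⟩
      show ((e (e.symm a) : alternatingGroup (Fin 6)) : Perm (Fin 6)) ∈ u0
      rw [e.apply_symm_apply]; exact ha
    · intro hn
      exact ⟨e n, hn, e.symm_apply_apply n⟩
  have hself : ∀ P : Sylow 2 N, Subgroup.normalizer ((P : Subgroup N) : Set N) = (P : Subgroup N) := fun P =>
    le_antisymm ((Known.sylowSelfNormalizing_alternating_fin 6 le_rfl).of_equiv e P)
      Subgroup.le_normalizer
  let r : Fin 45 → N := fun i => e.symm ⟨rep i, rep_sign i⟩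
  have her : ∀ i, ((e (r i) : alternatingGroup (Fin 6)) : Perm (Fin 6)) = rep i := fun i => by simp [r]
  have hmem : ∀ (i : Fin 45) (n : N), n ∈ ((r i • U₀ : Sylow 2 N) : Subgroup N) ↔
      (rep i)⁻¹ * ((e n : alternatingGroup (Fin 6)) : Perm (Fin 6)) * rep i ∈ u0 := by
    intro i n
    rw [Sylow.coe_subgroup_smul, Subgroup.mem_pointwise_smul_iff_inv_smul_mem, hU₀]
    simp [MulAut.smul_def, her]
  have hcard : Nat.card (Sylow 2 N) = 45 := by
    have h := (U₀ : Subgroup N).index_mul_card
    rw [U₀.card_eq_index_normalizer, show Subgroup.normalizer (U₀ : Set N) = (U₀ : Subgroup N) from hself U₀]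
    rw [show Nat.card (U₀ : Subgroup N) = 8 by rw [show Nat.card U₀ = _ from U₀.card_eq_multiplicity, hf]; rfl, hN] at h
    omega
  have hbij : Function.Bijective fun i => r i • U₀ := by
    haveI := Fintype.ofFinite (Sylow 2 N)
    refine Function.Injective.bijective_of_nat_card_le (fun i j h => ?_) (by rw [hcard, Nat.card_fin])
    apply rep_distinct
    have hh : ((r i)⁻¹ * r j) • U₀ = U₀ := by rw [mul_smul, ← h, inv_smul_smul]
    rw [Sylow.smul_eq_iff_mem_normalizer, show Subgroup.normalizer (U₀ : Set N) = (U₀ : Subgroup N) from hself U₀, hU₀] at hh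
    simpa [her] using hh
  have htriv : ∀ i, ((r i • U₀ : Sylow 2 N) : Subgroup N) ⊓ U₀ = ⊥ ↔
      ∀ a ∈ u0, (rep i)⁻¹ * a * rep i ∈ u0 → a = 1 := by
    intro i
    rw [Subgroup.eq_bot_iff_forall]
    constructor
    · intro h a ha hai
      have := h (e.symm ⟨a, u0_sign a ha⟩) (Subgroup.mem_inf.2
        ⟨(hmem i _).2 (by simpa using hai), (hU₀ _).2 (by simpa using ha)⟩)
      rw [MulEquiv.map_eq_one_iff] at this
      exact congrArg Subtype.val this
    · intro h n hn
      obtain ⟨h1, h2⟩ := Subgroup.mem_inf.1 hn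
      have := h _ ((hU₀ n).1 h2) ((hmem i n).1 h1)
      apply e.injective
      rw [map_one]
      exact Subtype.ext this
  have hfew : Nat.card {P : Sylow 2 N // (P : Subgroup N) ⊓ U₀ = ⊥} ≤ 2 ^ 2 * Nat.card U₀ := by
    rw [U₀.card_eq_multiplicity, hf]
    rw [← Nat.card_congr ((Equiv.ofBijective _ hbij).subtypeEquiv (fun i => Iff.rfl :
      ∀ i, ((r i • U₀ : Sylow 2 N) : Subgroup N) ⊓ U₀ = ⊥ ↔ _))]
    rw [Nat.card_congr (Equiv.subtypeEquivRight htriv), Nat.card_eq_fintype_card, Fintype.card_subtype]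
    exact trivial_count
  -- the automorphism induced by a transposition
  let ψ : G →* MulAut (alternatingGroup (Fin 6)) := (MulAut.congr e).toMonoidHom.comp MulAut.conjNormal
  have hψ : Function.Injective ψ := by
    rw [← MonoidHom.ker_eq_bot_iff, eq_bot_iff, ← hC]
    intro g hg
    have hg' : (MulAut.conjNormal g : MulAut N) = 1 :=
      (MulAut.congr e).injective (hg.trans (map_one _).symm)
    rw [Subgroup.mem_centralizer_iff]
    intro n hn
    have := congrArg (fun φ : MulAut N => ((φ ⟨n, hn⟩ : N) : G)) hg'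
    simp only [MulAut.conjNormal_apply, MulAut.one_apply] at this
    exact (mul_inv_eq_iff_eq_mul.1 this).symm
  have hsurj : Function.Surjective ψ := by
    haveI := Fintype.ofFinite G
    haveI : Finite (MulAut (alternatingGroup (Fin 6))) :=
      Finite.of_injective (fun φ : MulAut (alternatingGroup (Fin 6)) => φ.toEquiv) fun a b h => MulEquiv.toEquiv_injective h
    refine (hψ.bijective_of_nat_card_le ?_).2
    rw [← N.index_mul_card, hidx, hN]
    exact Nat.le_of_dvd (by norm_num) (H77.AltSix.card_mulAut_dvd (Fintype.card_fin 6))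
  obtain ⟨g₀, hg₀⟩ := hsurj (MulAut.conjNormal (Equiv.swap (0 : Fin 6) 2))
  have hact : ∀ n : N, ((e ((MulAut.conjNormal g₀ : MulAut N) n) : alternatingGroup (Fin 6)) : Perm (Fin 6))
      = Equiv.swap 0 2 * (e n : Perm (Fin 6)) * Equiv.swap 0 2 := by
    intro n
    have := congrArg (fun φ : MulAut (alternatingGroup (Fin 6)) => ((φ (e n) : alternatingGroup (Fin 6)) : Perm (Fin 6))) hg₀
    simpa [ψ, MulAut.conjNormal_apply, MulAut.congr_apply] using this
  have hfix : ∀ (P : Sylow 2 N), (∀ n ∈ (P : Subgroup N), (MulAut.conjNormal g₀ : MulAut N) n ∈ (P : Subgroup N)) →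
      (MulAut.conjNormal g₀ : MulAut N) • P = P := by
    intro P hP
    refine Sylow.ext ?_
    rw [Sylow.pointwise_smul_def]
    refine Subgroup.eq_of_le_of_card_ge ?_ (le_of_eq ?_)
    · rintro _ ⟨n, hn, rfl⟩
      exact hP n hn
    · exact (Subgroup.card_map_of_injective (MulEquiv.injective _)).symm
  refine inf_conj_ne_bot_of_fixed 2 2 N (by rw [hidx]; rfl) hself U₀ hfew (r 1 • U₀)
    ((htriv 1).2 rep_one_trivial) g₀ ?_ (hfix _ ?_) (hfix _ ?_) H x
  · intro h
    rw [h, map_one] at hg₀
    have := congrArg (fun φ : MulAut (alternatingGroup (Fin 6)) =>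
      ((φ ⟨Equiv.swap 0 1 * Equiv.swap 2 3, Equiv.Perm.mem_alternatingGroup.2 (by decide)⟩ :
        alternatingGroup (Fin 6)) : Perm (Fin 6))) hg₀
    simp only [MulAut.one_apply, MulAut.conjNormal_apply] at this
    revert this
    decide +kernel
  · intro n hn
    rw [hU₀] at hn ⊢
    rw [hact]
    exact fixed_u0 _ hn
  · intro n hn
    rw [hmem] at hn ⊢
    rw [hact]
    have := rep_one_fixed _ hn
    simpa [mul_assoc] using this

end Cfsg.Agent.Spec.AltSixSylow
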