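import Cfsg.Agent.Spec.UnitaryBasic

/-!
Regular unipotent elements of special unitary groups, and their block embeddings.
-/

set_option autoImplicit false
set_option linter.style.haveILetI false

open Matrix Polynomial

namespace Cfsg.Agent.Spec.Unitary

variable {F : Type*} [Field F] [Fintype F] {q : ℕ}

omit [Fintype F] in
/-- In `F[X]/(X^m)` every nonzero element divides `x^(m-1)`. -/
theorem exists_mul_eq_top {m : ℕ} (y : AdjoinRoot (X ^ m : F[X])) (hy : y ≠ 0) :
    ∃ b, y * b = AdjoinRoot.root (X ^ m : F[X]) ^ (m - 1) := by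
  obtain ⟨P, rfl⟩ := AdjoinRoot.mk_surjective y
  have hP0 : P ≠ 0 := fun h => hy (by rw [h, map_zero])
  have hfin : FiniteMultiplicity (X : F[X]) P := FiniteMultiplicity.of_not_isUnit not_isUnit_X hP0
  obtain ⟨Q, hQ, hXQ⟩ := hfin.exists_eq_pow_mul_and_not_dvd
  set i := multiplicity (X : F[X]) P
  have hi : i < m := by
    by_contra h
    exact hy (AdjoinRoot.mk_eq_zero.2 ((pow_dvd_pow X (le_of_not_gt h)).trans ⟨Q, hQ⟩))
  obtain ⟨a, b, hab⟩ : IsCoprime Q (X ^ m : F[X]) :=
    ((irreducible_X.coprime_iff_not_dvd.2 hXQ).symm).pow_right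
  refine ⟨AdjoinRoot.mk _ (a * X ^ (m - 1 - i)), ?_⟩
  rw [← map_mul, ← AdjoinRoot.mk_X, ← map_pow, AdjoinRoot.mk_eq_mk]
  refine ⟨- (b * X ^ (m - 1)), ?_⟩
  have hsplit : (X : F[X]) ^ (m - 1) = X ^ i * X ^ (m - 1 - i) := by
    rw [← pow_add]; congr 1; omega
  rw [hQ, hsplit]
  linear_combination (X ^ i * X ^ (m - 1 - i)) * hab

theorem exists_unipotent (hF : Fintype.card F = q ^ 2) {m : ℕ} (p E : ℕ) [Fact p.Prime]
    [CharP F p] (h1 : p ^ E < m) (h2 : m ≤ p ^ (E + 1)) :
    ∃ g : Cfsg.SU m F q, (g.1 : Matrix (Fin m) (Fin m) F) ^ p ^ (E + 1) = 1 ∧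
      ∀ c : F, (g.1 : Matrix (Fin m) (Fin m) F) ^ p ^ E ≠ c • 1 := by
  classical
  have hm : 0 < m := by omega
  set f : F[X] := X ^ m with hf
  have hmon : f.Monic := monic_X_pow m
  haveI : Module.Finite F (AdjoinRoot f) := hmon.finite_adjoinRoot
  have hdeg : f.natDegree = m := by rw [hf, natDegree_X_pow]
  have hdim : Module.finrank F (AdjoinRoot f) = m := by
    rw [(AdjoinRoot.powerBasis' hmon).finrank, AdjoinRoot.powerBasis'_dim, hdeg]
  haveI : Nontrivial (AdjoinRoot f) := Module.nontrivial_of_finrank_pos (R := F) (by omega)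
  haveI : CharP (AdjoinRoot f) p :=
    charP_of_injective_algebraMap (algebraMap F (AdjoinRoot f)).injective p
  set x : AdjoinRoot f := AdjoinRoot.root f with hx
  have hxm : x ^ m = 0 := by
    rw [hx, ← AdjoinRoot.mk_X, ← map_pow]
    exact AdjoinRoot.mk_self
  have hnil : IsNilpotent x := ⟨m, hxm⟩
  obtain ⟨u, hu⟩ := hnil.isUnit_one_add
  set w : AdjoinRoot f := ((u⁻¹ : (AdjoinRoot f)ˣ) : AdjoinRoot f) - 1 with hw
  have hwx : w = - (((u⁻¹ : (AdjoinRoot f)ˣ) : AdjoinRoot f) * x) := by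
    have h : ((u⁻¹ : (AdjoinRoot f)ˣ) : AdjoinRoot f) * (1 + x) = 1 := hu ▸ u.inv_mul
    rw [hw]; linear_combination h
  have hwm : w ^ m = 0 := by rw [hwx, neg_pow, mul_pow, hxm, mul_zero, mul_zero]
  let τ : AdjoinRoot f →+* AdjoinRoot f :=
    AdjoinRoot.lift ((algebraMap F (AdjoinRoot f)).comp (conjHom hF)) w (by
      show eval₂ _ w ((X : F[X]) ^ m) = 0
      rw [eval₂_pow, eval₂_X]; exact hwm)
  have hτof : ∀ c : F, τ (algebraMap F (AdjoinRoot f) c) = algebraMap F _ (conjHom hF c) :=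
    fun c => by
      rw [AdjoinRoot.algebraMap_eq]
      exact AdjoinRoot.lift_of _
  have hτx : τ x = w := AdjoinRoot.lift_root _
  have hτu : τ (u : AdjoinRoot f) = ((u⁻¹ : (AdjoinRoot f)ˣ) : AdjoinRoot f) := by
    rw [hu, map_add, map_one, hτx, hw, add_sub_cancel]
  have hττu : τ (τ (u : AdjoinRoot f)) = u := by
    have h : τ (τ (u : AdjoinRoot f)) * τ (u : AdjoinRoot f) = 1 := by
      rw [← map_mul, hτu, Units.inv_mul, map_one]
    rw [hτu] at h ⊢
    calc τ ((u⁻¹ : (AdjoinRoot f)ˣ) : AdjoinRoot f)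
        = τ ((u⁻¹ : (AdjoinRoot f)ˣ) : AdjoinRoot f) *
            (((u⁻¹ : (AdjoinRoot f)ˣ) : AdjoinRoot f) * u) := by rw [Units.inv_mul, mul_one]
      _ = u := by rw [← mul_assoc, h, one_mul]
  have hττ : τ.comp τ = RingHom.id _ := by
    apply AdjoinRoot.ringHom_ext
    · refine RingHom.ext fun c => ?_
      show τ (τ (algebraMap F (AdjoinRoot f) c)) = algebraMap F (AdjoinRoot f) c
      rw [hτof, hτof, conjHom_conjHom]
    · show τ (τ x) = x
      have h := hττu
      rw [hu, map_add, map_one, map_add, map_one] at h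
      exact add_left_cancel h
  have hττ' : ∀ a, τ (τ a) = a := fun a => RingHom.congr_fun hττ a
  have hτsmul : ∀ (c : F) (a : AdjoinRoot f), τ (c • a) = conjHom hF c • τ a := fun c a => by
    rw [Algebra.smul_def, map_mul, hτof, ← Algebra.smul_def]
  -- the linear form
  let l0 : AdjoinRoot f →ₗ[F] F := (lcoeff F (m - 1)).comp (AdjoinRoot.modByMonicHom hmon)
  obtain ⟨c, hc⟩ : ∃ c : F, c + (-1) ^ (m - 1) * c ^ q ≠ 0 := by
    by_contra h
    push Not at h
    have h1' := h 1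
    rw [one_pow, mul_one] at h1'
    obtain ⟨y, hy⟩ := exists_ne_pow hF
    exact hy (by linear_combination (-1 : F) * h y + y ^ q * h1')
  let lam : AdjoinRoot f →ₗ[F] F :=
    { toFun := fun a => c * l0 a + conjHom hF (c * l0 (τ a))
      map_add' := fun a b => by simp only [map_add, mul_add]; abel
      map_smul' := fun s a => by
        simp only [hτsmul, map_smul, smul_eq_mul, RingHom.id_apply, map_mul, conjHom_conjHom]
        ring }
  have hlamτ : ∀ a, conjHom hF (lam a) = lam (τ a) := by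
    intro a
    show conjHom hF (c * l0 a + conjHom hF (c * l0 (τ a))) =
      c * l0 (τ a) + conjHom hF (c * l0 (τ (τ a)))
    rw [map_add, conjHom_conjHom, hττ', add_comm]
  have hlamtop : lam (x ^ (m - 1)) ≠ 0 := by
    have hl0 : l0 (x ^ (m - 1)) = 1 := by
      show ((AdjoinRoot.modByMonicHom hmon) (x ^ (m - 1))).coeff (m - 1) = 1
      rw [hx, ← AdjoinRoot.mk_X, ← map_pow, AdjoinRoot.modByMonicHom_mk,
        (modByMonic_eq_self_iff hmon).2 ?_, coeff_X_pow_self]
      rw [hf, degree_X_pow, degree_X_pow]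
      exact_mod_cast (show m - 1 < m by omega)
    have hxx : x ^ (m - 1) * x = 0 := by rw [← pow_succ, Nat.sub_add_cancel hm, hxm]
    have hui : x ^ (m - 1) * ((u⁻¹ : (AdjoinRoot f)ˣ) : AdjoinRoot f) = x ^ (m - 1) := by
      calc x ^ (m - 1) * ((u⁻¹ : (AdjoinRoot f)ˣ) : AdjoinRoot f)
          = (x ^ (m - 1) * (u : AdjoinRoot f)) * ((u⁻¹ : (AdjoinRoot f)ˣ) : AdjoinRoot f) := by
            rw [hu, mul_add, mul_one, hxx, add_zero]
        _ = x ^ (m - 1) := by rw [mul_assoc, Units.mul_inv, mul_one]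
    have hui' : ∀ i : ℕ, x ^ (m - 1) * ((u⁻¹ : (AdjoinRoot f)ˣ) : AdjoinRoot f) ^ i =
        x ^ (m - 1) := by
      intro i
      induction i with
      | zero => simp
      | succ i ih => rw [pow_succ, ← mul_assoc, ih, hui]
    have hτtop : τ (x ^ (m - 1)) = ((-1 : F) ^ (m - 1)) • x ^ (m - 1) := by
      rw [map_pow, hτx, hwx, neg_pow, mul_pow, mul_comm (_ ^ (m - 1)) (x ^ (m - 1)), hui',
        Algebra.smul_def, map_pow, map_neg, map_one]
    show c * l0 (x ^ (m - 1)) + conjHom hF (c * l0 (τ (x ^ (m - 1)))) ≠ 0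
    rw [hτtop, map_smul, hl0, smul_eq_mul, mul_one, mul_one, map_mul, map_pow, map_neg, map_one,
      conjHom_apply, mul_comm (c ^ q)]
    exact hc
  let B : AdjoinRoot f →ₛₗ[conjHom hF] AdjoinRoot f →ₗ[F] F :=
    LinearMap.mk₂'ₛₗ (conjHom hF) (RingHom.id F) (fun a b => lam (τ a * b))
      (fun a a' b => by simp only [map_add, add_mul])
      (fun s a b => by simp only [hτsmul, smul_mul_assoc, map_smul])
      (fun a b b' => by simp only [mul_add, map_add])
      (fun s a b => by simp only [mul_smul_comm, map_smul, RingHom.id_apply])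
  have hB : ∀ a b, B a b = lam (τ a * b) := fun a b => rfl
  have hsymm : B.IsSymm := by
    refine ⟨fun a b => ?_⟩
    rw [hB, hB, hlamτ, map_mul τ, hττ', mul_comm]
  have hsep : B.SeparatingLeft := by
    intro a ha
    by_contra hne
    have hτa : τ a ≠ 0 := fun h => hne (by rw [← hττ' a, h, map_zero])
    obtain ⟨b, hb⟩ := exists_mul_eq_top (τ a) hτa
    exact hlamtop (by rw [hx, ← hb]; exact ha b)
  have hiso : ∀ a b, B (LinearMap.mulLeft F (u : AdjoinRoot f) a)
      (LinearMap.mulLeft F (u : AdjoinRoot f) b) = B a b := by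
    intro a b
    rw [hB, hB, LinearMap.mulLeft_apply, LinearMap.mulLeft_apply, map_mul τ, hτu,
      show ((u⁻¹ : (AdjoinRoot f)ˣ) : AdjoinRoot f) * τ a * ((u : AdjoinRoot f) * b) =
        (((u⁻¹ : (AdjoinRoot f)ˣ) : AdjoinRoot f) * u) * (τ a * b) by ring,
      Units.inv_mul, one_mul]
  have hupow : (u : AdjoinRoot f) ^ p ^ (E + 1) = 1 := by
    rw [hu, add_pow_char_pow, one_pow,
      show p ^ (E + 1) = m + (p ^ (E + 1) - m) by omega, pow_add, hxm, zero_mul, add_zero]
  have hdet : LinearMap.det (LinearMap.mulLeft F (u : AdjoinRoot f)) = 1 := by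
    show Algebra.norm F (u : AdjoinRoot f) = 1
    apply (iterateFrobenius F p (E + 1)).injective
    rw [iterateFrobenius_def, iterateFrobenius_def, ← map_pow, hupow, map_one, one_pow]
  obtain ⟨g, hg⟩ := realise hF hdim B hsymm hsep _ hiso hdet
  refine ⟨g, ?_, fun s hs => ?_⟩
  · rw [← one_smul F (1 : Matrix (Fin m) (Fin m) F), hg, one_smul, LinearMap.pow_mulLeft, hupow,
      LinearMap.mulLeft_one]
  · have h := LinearMap.congr_fun ((hg _ s).1 hs) 1
    rw [LinearMap.pow_mulLeft, LinearMap.mulLeft_apply, mul_one, hu, add_pow_char_pow, one_pow,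
      LinearMap.smul_apply, LinearMap.id_apply, ← Algebra.algebraMap_eq_smul_one,
      AdjoinRoot.algebraMap_eq, hx, ← AdjoinRoot.mk_X, ← map_pow, ← AdjoinRoot.mk_C,
      ← map_one (AdjoinRoot.mk f), ← map_add, AdjoinRoot.mk_eq_mk] at h
    have hlt : ((1 : F[X]) + X ^ p ^ E - C s).natDegree < f.natDegree := by
      rw [hdeg]
      refine lt_of_le_of_lt ((natDegree_sub_le _ _).trans (max_le ?_ ?_)) h1
      · exact (natDegree_add_le _ _).trans (max_le (by simp) (natDegree_X_pow_le _))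
      · simp
    have hz := eq_zero_of_dvd_of_natDegree_lt h hlt
    have hcz := congrArg (fun P => coeff P (p ^ E)) hz
    have hpos : p ^ E ≠ 0 := pow_ne_zero _ (Fact.out : p.Prime).ne_zero
    simp only [coeff_zero, coeff_sub, coeff_add, coeff_one, coeff_C, if_neg hpos,
      coeff_X_pow_self, zero_add, sub_zero] at hcz
    exact one_ne_zero hcz

/-- A block embedding `SU_m → SU_n` with the commuting self-adjoint idempotent. -/
theorem exists_embed (hF : Fintype.card F = q ^ 2) {m n : ℕ} (hmn : m ≤ n) (g : Cfsg.SU m F q) :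
    ∃ (g' : Cfsg.SU n F q) (e : Matrix (Fin n) (Fin n) F), e * e = e ∧ adj hF e = e ∧
      (0 < m → e ≠ 0) ∧ (m < n → e ≠ 1) ∧
      (g'.1 : Matrix (Fin n) (Fin n) F) * e = e * (g'.1 : Matrix (Fin n) (Fin n) F) ∧
      (∀ j : ℕ, (g.1 : Matrix (Fin m) (Fin m) F) ^ j = 1 →
        (g'.1 : Matrix (Fin n) (Fin n) F) ^ j = 1) ∧
      ∀ (j : ℕ) (c : F), (g'.1 : Matrix (Fin n) (Fin n) F) ^ j = c • 1 →
        (g.1 : Matrix (Fin m) (Fin m) F) ^ j = c • 1 := by
  classical
  obtain ⟨k, rfl⟩ := Nat.exists_eq_add_of_le hmn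
  let R := Matrix.reindexAlgEquiv F F (finSumFinEquiv : Fin m ⊕ Fin k ≃ Fin (m + k))
  have hadj : ∀ (A : Matrix (Fin m) (Fin m) F) (D : Matrix (Fin k) (Fin k) F),
      adj hF (R (fromBlocks A 0 0 D)) = R (fromBlocks (adj hF A) 0 0 (adj hF D)) := by
    intro A D
    refine Matrix.ext fun i j => ?_
    obtain ⟨i, rfl⟩ := (finSumFinEquiv : Fin m ⊕ Fin k ≃ Fin (m + k)).surjective i
    obtain ⟨j, rfl⟩ := (finSumFinEquiv : Fin m ⊕ Fin k ≃ Fin (m + k)).surjective j
    simp only [adj, R, Matrix.coe_reindexAlgEquiv, Matrix.reindex_apply, Matrix.transpose_apply,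
      Matrix.map_apply, Matrix.submatrix_apply, Equiv.symm_apply_apply]
    rcases i with i | i <;> rcases j with j | j <;> simp [conjHom]
    all_goals (have := two_le_q hF; omega)
  set A : Matrix (Fin m) (Fin m) F := (g.1 : Matrix (Fin m) (Fin m) F) with hA
  have hdet : (R (fromBlocks A 0 0 1)).det = 1 := by
    rw [Matrix.det_reindexAlgEquiv, Matrix.det_fromBlocks_zero₂₁, Matrix.det_one, mul_one]
    exact g.1.2
  have hU : adj hF (R (fromBlocks A 0 0 1)) * R (fromBlocks A 0 0 1) = 1 := by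
    rw [hadj, adj_one, ← map_mul, fromBlocks_multiply, hA, adj_mul_self hF g]
    simp [fromBlocks_one]
  let g' : Cfsg.SU (m + k) F q := ⟨⟨R (fromBlocks A 0 0 1), hdet⟩, (mem_SU_iff hF _).2 hU⟩
  have hpow : ∀ j : ℕ, (g'.1 : Matrix (Fin (m + k)) (Fin (m + k)) F) ^ j =
      R (fromBlocks (A ^ j) 0 0 1) := by
    intro j
    induction j with
    | zero => simp [fromBlocks_one]
    | succ j ih =>
      rw [pow_succ, ih]
      show R (fromBlocks (A ^ j) 0 0 1) * R (fromBlocks A 0 0 1) = _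
      rw [← map_mul, fromBlocks_multiply]
      simp [pow_succ]
  refine ⟨g', R (fromBlocks 1 0 0 0), ?_, ?_, ?_, ?_, ?_, ?_, ?_⟩
  · rw [← map_mul, fromBlocks_multiply]; simp
  · rw [hadj, adj_one, adj_zero]
  · intro hm h
    have h' := congrArg (fun T => toBlocks₁₁ T) (R.injective (h.trans (map_zero R).symm))
    have := congrFun (congrFun h' ⟨0, hm⟩) ⟨0, hm⟩
    simp [toBlocks₁₁] at this
  · intro hk h
    have hkpos : 0 < k := by omega
    have h' := congrArg (fun T => toBlocks₂₂ T) (R.injective (h.trans (map_one R).symm))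
    have := congrFun (congrFun h' ⟨0, hkpos⟩) ⟨0, hkpos⟩
    simp [toBlocks₂₂] at this
  · show R (fromBlocks A 0 0 1) * R (fromBlocks 1 0 0 0) = _ * R (fromBlocks A 0 0 1)
    rw [← map_mul, ← map_mul, fromBlocks_multiply, fromBlocks_multiply]
    simp
  · intro j hj
    rw [hpow, hA, hj, fromBlocks_one, map_one]
  · intro j c hj
    rw [hpow, ← map_one R, ← map_smul] at hj
    have h := congrArg (fun T => toBlocks₁₁ T) (R.injective hj)
    simp only [toBlocks_fromBlocks₁₁] at h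
    rw [h]
    refine Matrix.ext fun i i' => ?_
    simp [toBlocks₁₁, Matrix.one_apply]

end Cfsg.Agent.Spec.Unitary
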